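import Cfsg.Agent.Lib.PushUp.RankOne.BlockTwoForm
import Cfsg.Agent.Lib.PushUp.RankOne.Instance

/-!
Rank one pushing up: the block `O^p(G)` of an abstract group, read off from the configuration.
-/

set_option autoImplicit false
set_option linter.unusedSectionVars false
set_option linter.style.haveILetI false

universe u

namespace CfsgLib.PushUp.RankOne

open Cfsg
open scoped commutatorElement MatrixGroups
open Matrix
open CfsgLib.ClassicalLinear (upS upS_coe upS_add)
open CfsgLib.SL2Gen (lowS lowS_coe)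

variable {X : Type*} [Group X] [Finite X] {p q : ℕ} {Γ : Type*} [MulAction X Γ]

namespace Sys

variable {D : Sys p q X Γ} [hp : Fact p.Prime] {G : Type*} [Group G] [Finite G]
  {F : Type} [Field F] {x : Γ} {P : Subgroup X} {e : G ≃* ↥(D.Gv x)} {S : Sylow p G}

theorem mem_kerSub_iff {W Y : Subgroup X} (R : D.Rep x W Y F) {a : X} (ha : a ∈ W) :
    a ∈ R.kerSub ↔ ∀ g ∈ D.Gv x, ⁅g, a⁆ ∈ Y :=
  ⟨fun ⟨_, h⟩ => (R.ker ⟨a, ha⟩).1 h, fun h => ⟨ha, (R.ker ⟨a, ha⟩).2 h⟩⟩

theorem Env.midFacts (hE : D.Env x P e (pCore p G) (S : Subgroup G)) (RV : D.Rep x (D.V x) ⊥ F)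
    (hker : ∀ g : ↥(D.Gv x), RV.ρ g = 1 ↔ (g : X) ∈ D.Q x)
    (hup : ∀ g : ↥(D.Gv x), (g : X) ∈ P → ∃ t, RV.ρ g = upS t) :
    MidFacts S (RV.natSection e D.normV (D.V_le_G x)) where
  kerρ g := (hker (e g)).trans (hE.memQ g).symm
  upper s hs := hup (e s) ((hE.memS s).1 hs)
  exists_not := by
    obtain ⟨z, hz, hzQ⟩ := D.Q_ne hE.edge
    obtain ⟨g, rfl⟩ := exists_incl e (D.le_G hE.edge hz)
    exact ⟨g, (hE.memS g).2 hz, fun h => hzQ ((hE.memQ g).1 h)⟩
  cen z hz := by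
    refine Iff.trans (mem_kerSub_iff RV (a := incl e z) hz) ⟨fun h g => ?_, fun h a ha => ?_⟩
    · refine incl_injective e ?_
      rw [_root_.map_mul, _root_.map_mul]
      exact sub_iff.1 (Subgroup.mem_bot.1 (h _ (incl_mem e g)))
    · obtain ⟨g, rfl⟩ := exists_incl e ha
      rw [← map_commutatorElement, Subgroup.mem_bot, sub_iff.2 (h g), _root_.map_one]
  V_le v hv := (hE.memQ v).2 (D.V_le x hv)
  commQ a ha v hv := incl_injective e (by
    rw [_root_.map_mul, _root_.map_mul]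
    exact D.comm _ ((hE.memQ a).1 ha) _ hv)
  powV v hv := incl_injective e (by
    rw [_root_.map_pow, _root_.map_one]
    exact D.powV _ hv)
  cover N hN := by
    rintro ⟨z, hzN, hzS, hzQ⟩
    have hle : N.map (incl e) ≤ D.Gv x := by
      rintro _ ⟨g, -, rfl⟩; exact incl_mem e g
    have h1 := D.sup_eq_of_normal hE.edge hle (fun g hg a ha => by
      obtain ⟨g, rfl⟩ := exists_incl e hg
      obtain ⟨a, ha, rfl⟩ := ha
      exact ⟨g * a * g⁻¹, hN.conj_mem a ha g, by simp⟩) ⟨z, hzN, rfl⟩ ((hE.memS z).1 hzS)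
      fun h => hzQ ((hE.memQ z).2 h)
    have h2 := sup_comap e hle (D.le_G hE.edge) h1
    rw [Subgroup.comap_map_eq_self_of_injective (incl_injective e)] at h2
    convert h2 using 2
    ext g
    exact hE.memS g

/-- The block for `b = 1`. -/
theorem blockData_one [Fintype F] [CharP F p] (hF : Fintype.card F = q)
    (hE : D.Env x P e (pCore p G) (S : Subgroup G)) (hG : ∀ z, D.Good z) {y : Γ} (hc : D.Crit x y P P)
    (R : D.Rep x (D.V x) ⊥ F) (n : ℕ) :
    BlockData p n (S : Subgroup G) (pCore p G) (pResidual p G) F := by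
  obtain ⟨g₀, hg₀, hg₀M⟩ := D.exists_not_mem hE.edge
  obtain ⟨RV, hRV⟩ := R.exists_normal hF hE.edge (D.I_conj hg₀ hE.edge)
    (D.sup_cj_eq hE.edge hg₀ hg₀M)
  have hcomm : ∀ u ∈ D.V y, ∀ a ∈ D.Q x, ∃ v ∈ D.V x, ⁅u, a⁆ = ⁅u, v⁆ := by
    intro u hu a ha
    obtain ⟨v, hv, d, hd, rfl⟩ := hc.symm.exists_decomp D hG (D.Q_le hE.edge ha)
    refine ⟨v, hv, ?_⟩
    rw [comm_mul_right, sub_iff.2 (D.comm d hd u hu).symm, mul_one, mul_inv_cancel, mul_one]
  have hmem : ∀ u ∈ D.V y, ∀ a ∈ D.Q x, ⁅u, a⁆ ∈ D.V x := by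
    intro u hu a ha
    obtain ⟨v, hv, e'⟩ := hcomm u hu a ha
    rw [e', ← commutatorElement_inv]
    exact (D.V x).inv_mem (hc.comm_le_V D (Subgroup.commutator_mem_commutator hv hu))
  let N : Subgroup X :=
    { carrier := {g | g ∈ D.Gv x ∧ ∀ d ∈ D.Q x, ⁅g, d⁆ ∈ D.V x}
      one_mem' := ⟨one_mem _, fun d _ => by simp⟩
      mul_mem' := fun {a b} ha hb => ⟨(D.Gv _).mul_mem ha.1 hb.1, fun d hd => by
        rw [comm_mul_left]
        exact (D.V _).mul_mem (D.normV a ha.1 _ (hb.2 d hd)) (ha.2 d hd)⟩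
      inv_mem' := fun {a} ha => ⟨(D.Gv _).inv_mem ha.1, fun d hd => by
        have e : ⁅a⁻¹, d⁆ = a⁻¹ * ⁅a, d⁆⁻¹ * a⁻¹⁻¹ := by simp [commutatorElement_def, mul_assoc]
        rw [e]
        exact D.normV _ ((D.Gv _).inv_mem ha.1) _ ((D.V _).inv_mem (ha.2 d hd))⟩ }
  have hnorm : ∀ g ∈ D.Gv x, ∀ n ∈ N, g * n * g⁻¹ ∈ N := fun g hg n hn =>
    ⟨(D.Gv _).mul_mem ((D.Gv _).mul_mem hg hn.1) ((D.Gv _).inv_mem hg), fun d hd => by
      have h1 := D.normV g hg _ (hn.2 _ (D.normQ g⁻¹ ((D.Gv _).inv_mem hg) d hd))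
      simpa [commutatorElement_def, mul_assoc] using h1⟩
  obtain ⟨u, hu, huQ⟩ := SetLike.not_le_iff_exists.1 hc.not_le'
  have huP := hc.mem_first hu
  have hsup : N ⊔ P = D.Gv x := D.sup_eq_of_normal hE.edge (fun g hg => hg.1) hnorm
    (show u ∈ N from ⟨D.le_G hE.edge huP, hmem u hu⟩) huP huQ
  have hker := D.kerV_eq hE.edge hE.cent' RV (D.V x) (D.V_le x) N hnorm hsup (fun n hn => hn.2)
    (fun g hg a ha => by
      have := Subgroup.mem_bot.1 ((RV.kerρ g).1 hg a ha)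
      rw [this]; exact one_mem _)
  refine (hE.midFacts RV hker hRV.upper).blockData_one (U := (D.V y).comap (incl e))
    (fun a ha b hb => incl_injective e (by
      rw [_root_.map_mul, _root_.map_mul]; exact D.commV ha hb))
    (fun s hs => ?_) (fun a ha => (hE.memS a).2 (hc.mem_first ha))
    (fun a ha => incl_injective e (by rw [_root_.map_pow, _root_.map_one]; exact D.powV _ ha))
    (fun a ha c hc' => ?_)
  · obtain ⟨a, ha, c, hc', es⟩ := hc.exists_decomp D hG ((hE.memS s).1 hs)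
    obtain ⟨a, rfl⟩ := exists_incl e (D.le_G hE.edge (hc.mem_first ha))
    obtain ⟨c, rfl⟩ := exists_incl e (D.Q_le_G x hc')
    exact ⟨a, ha, c, (hE.memQ c).2 hc', incl_injective e (by rw [_root_.map_mul]; exact es)⟩
  · obtain ⟨v, hv, ev⟩ := hcomm _ ha _ ((hE.memQ c).1 hc')
    obtain ⟨v, rfl⟩ := exists_incl e (D.V_le_G x hv)
    rw [show ⁅a, c⁆ = ⁅a, v⁆ from incl_injective e (by
      rw [map_commutatorElement, map_commutatorElement]; exact ev), ← commutatorElement_inv]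
    exact Subgroup.inv_mem _ (Subgroup.commutator_mem_commutator hv (Subgroup.mem_top a))

/-- The block for `b = 2`. -/
theorem blockData_two [Fintype F] [CharP F p] {L : ℕ} {v : ℕ → Γ} {Pc : ℕ → Subgroup X}
    (h : D.Two L v Pc) (h5 : 5 ≤ L) {n : ℕ} (hq : q = p ^ n) (hF : Fintype.card F = q)
    {e : G ≃* ↥(D.Gv (v 2))} (hE : D.Env (v 2) (Pc 2) e (pCore p G) (S : Subgroup G)) :
    BlockData p n (S : Subgroup G) (pCore p G) (pResidual p G) F := by
  obtain ⟨RV, RM, hC⟩ := h.exists_coords (F := F) hF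
  have hker := fun g => hC.kerV_eq_Q h5 hE.cent' g
  have hWn : ∀ g ∈ D.Gv (v 2), ∀ w ∈ D.W (v 2), g * w * g⁻¹ ∈ D.W (v 2) :=
    fun g hg w hw => D.W_conj hg hw
  have hp3 : p = 3 := hC.p_eq_three h5
  have hc2 := h.crit (i := 2) h.four
  have hc1 := h.crit (i := 1) (by have := h.four; omega)
  have hV1G : D.V (v 1) ≤ D.Gv (v 2) :=
    ((h.V_le_Q (i := 1) (j := 2) (by omega) (by omega) le_rfl).1).trans (D.Q_le_G _)
  have hV4G : D.V (v 4) ≤ D.Gv (v 2) := hc2.mem_first.trans (D.le_G h.edge)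
  have hR0 : ∀ r : G, incl e r ∈ ⁅D.V (v 2), D.V (v 4)⁆ →
      r ∈ ⁅(D.V (v 2)).comap (incl e), (⊤ : Subgroup G)⁆ := by
    intro r hr
    have hle : ⁅D.V (v 2), D.V (v 4)⁆ ≤ ⁅(D.V (v 2)).comap (incl e), (⊤ : Subgroup G)⁆.map (incl e) := by
      rw [Subgroup.commutator_le]
      intro a ha b hb
      obtain ⟨a, rfl⟩ := exists_incl e (D.V_le_G _ ha)
      obtain ⟨b, rfl⟩ := exists_incl e (hV4G hb)
      exact ⟨⁅a, b⁆, Subgroup.commutator_mem_commutator ha (Subgroup.mem_top b),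
        map_commutatorElement _ _ _⟩
    obtain ⟨r', hr', er⟩ := hle hr
    rwa [← incl_injective e er]
  have hY3 : ∀ {f : X}, f ∈ RM.kerSub → f ∈ D.Q (v 3) := fun {f} hf => by
    obtain ⟨hfW, hf0⟩ := hf
    exact (hC.memM ⟨f, hfW⟩).1 (by rw [hf0]; rfl)
  refine MidTwo.blockData_two (U := (D.V (v 4)).comap (incl e))
    (SV := RV.natSection e D.normV (D.V_le_G _)) (SM := RM.natSection e hWn h.W_le_G)
    { mid := hE.midFacts RV hker hC.normV.upper
      three := hp3
      char := by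
        have := CharP.cast_eq_zero F p
        rw [hp3] at this
        exact_mod_cast this
      one_lt := hq ▸ D.one_lt_q
      cardF := hq ▸ hC.card
      V_le := fun a ha => h.V2_le_W ha
      W_le := fun a ha => (hE.memQ a).2 (h.W_le ha)
      memY := fun f hf => Iff.trans (mem_kerSub_iff RM (a := incl e f) hf) ⟨fun h' g => ?_, fun h' a ha => ?_⟩
      powW := fun w hw => ?_
      commW := fun a ha b hb => ?_
      commWQ := fun w hw d hd => ?_
      kerM := fun g hg => RM.kerQ (e g) ((hE.memQ g).1 hg)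
      form := fun a a' b b' ha ha' ea eb => ?_
      size := ?_
      U_comm := fun a ha b hb => incl_injective e (by
        rw [_root_.map_mul, _root_.map_mul]; exact D.commV ha hb)
      dec := fun s hs => ?_
      U_le := fun a ha => (hE.memS a).2 (hc2.mem_first ha)
      UQ := fun u hu d hd => ?_
      UY := fun u hu f hf => hR0 _ (by rw [map_commutatorElement]; exact h.comm_Q3 (hY3 hf) hu)
      lift := fun w hw s hs => ?_
      val := ?_ }
  · show incl e ⁅g, f⁆ ∈ D.V (v 2)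
    rw [map_commutatorElement]; exact h' _ (incl_mem e g)
  · obtain ⟨g, rfl⟩ := exists_incl e ha
    rw [← map_commutatorElement]; exact h' g
  · refine incl_injective e ?_
    rw [_root_.map_pow, _root_.map_one]
    let K : Subgroup X :=
      { carrier := {z | z ∈ D.W (v 2) ∧ z ^ p = 1}
        one_mem' := ⟨one_mem _, one_pow _⟩
        mul_mem' := fun {a b} ha hb => ⟨(D.W _).mul_mem ha.1 hb.1, by
          have hc := h.comm_W hb.1 ha.1
          have hcen : ∀ g ∈ D.W (v 2), Commute ⁅b, a⁆ g := fun g hg =>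
            (D.comm g (h.W_le hg) _ hc).symm
          rw [mul_pow_of_central (c := ⁅b, a⁆) (by simp [commutatorElement_def, mul_assoc])
            (hcen a ha.1) (hcen b hb.1) p, ha.2, hb.2, hp3, show Nat.choose 3 2 = 3 from rfl, ← hp3,
            D.powV _ hc, one_mul, one_mul]⟩
        inv_mem' := fun {a} ha => ⟨(D.W _).inv_mem ha.1, by rw [inv_pow, ha.2, inv_one]⟩ }
    have hle : D.W (v 2) ≤ K := iSup₂_le fun P hP => iSup₂_le fun y hy u hu =>
      ⟨D.U_le_W hP (D.V_le_U hy hu), D.powV u hu⟩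
    exact (hle hw).2
  · show incl e ⁅a, b⁆ ∈ D.V (v 2)
    rw [map_commutatorElement]; exact h.comm_W ha hb
  · show incl e ⁅w, d⁆ ∈ RV.kerSub
    rw [map_commutatorElement]
    have h1 := h.comm_W_Q (Subgroup.commutator_mem_commutator hw ((hE.memQ d).1 hd))
    refine (mem_kerSub_iff RV h1).2 fun g hg => Subgroup.mem_bot.2 (sub_iff.2 ?_)
    exact hC.comm_Q_cent hw ((hE.memQ d).1 hd) g hg
  · refine incl_injective e ?_
    rw [map_commutatorElement, map_commutatorElement]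
    have hle : ⁅(D.W (v 2)).comap (incl e), (⊤ : Subgroup G)⁆ ≤
        ⁅D.Gv (v 2), D.W (v 2)⁆.comap (incl e) := by
      rw [Subgroup.commutator_le]
      intro w hw g _
      rw [Subgroup.mem_comap, map_commutatorElement, ← commutatorElement_inv]
      exact Subgroup.inv_mem _ (Subgroup.commutator_mem_commutator (incl_mem e g) hw)
    exact hC.form_congr (a := ⟨_, a.2⟩) (a' := ⟨_, a'.2⟩) (b := ⟨_, b.2⟩) (b' := ⟨_, b'.2⟩)
      (hle ha) (hle ha') ea eb
  · -- the commutators with a fixed member of the third module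
    obtain ⟨c, hc, hcQ⟩ := SetLike.not_le_iff_exists.1 hc1.not_le'
    have hcP := hc1.mem_first hc
    have hR1 : ∀ a ∈ D.V (v 1), ⁅a, c⁆ ∈ ⁅D.V (v 1), D.V (v 3)⁆ := fun a ha =>
      Subgroup.commutator_mem_commutator ha hc
    let g : ↥(D.V (v 1)) →* X :=
      { toFun := fun a => ⁅(a : X), c⁆
        map_one' := commutatorElement_one_left _
        map_mul' := fun a b => by
          rw [Subgroup.coe_mul, comm_mul_left, h.central_R1 (hV1G a.2) (hR1 b b.2), mul_inv_cancel_right,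
            h.central_R1 (D.V_le_G _ (h.R1_le (hR1 b b.2)).1) (hR1 a a.2)] }
    have hk : g.ker = (D.V (v 1) ⊓ Subgroup.centralizer (Pc 1 : Set X)).subgroupOf (D.V (v 1)) := by
      ext a
      refine ⟨fun ha => ⟨a.2, (h.good (v 1)).fix_eq _ hc1.first c hcP hcQ a a.2 ?_⟩, fun ha => ?_⟩
      · exact (sub_iff.1 ha).symm
      · exact sub_iff.2 (ha.2 c hcP).symm
    have hcard : Nat.card g.range = q := by
      have h1 := Subgroup.card_eq_card_quotient_mul_card_subgroup g.ker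
      rw [Nat.card_congr (QuotientGroup.quotientKerEquivRange g).toEquiv, hk,
        Nat.card_congr (Subgroup.subgroupOfEquivOfLe inf_le_left).toEquiv,
        (h.good (v 1)).card_V _ hc1.first] at h1
      exact (Nat.eq_of_mul_eq_mul_right Nat.card_pos h1).symm
    have hgG : g.range ≤ D.Gv (v 2) := by
      rintro _ ⟨a, rfl⟩
      exact D.V_le_G _ (h.R1_le (hR1 a a.2)).1
    refine ⟨g.range.comap (incl e), ?_, fun r hr => ?_⟩
    · have hm : (g.range.comap (incl e)).map (incl e) = g.range := Subgroup.map_comap_eq_self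
        fun z hz => exists_incl e (hgG hz)
      refine Eq.trans (Eq.trans ?_ hcard) hq
      rw [← Subgroup.card_map_of_injective (incl_injective e), hm]
    · obtain ⟨a, ha⟩ := hr
      obtain ⟨c', rfl⟩ := exists_incl e (h.W_le_G (h.V3_le_C hc).1)
      obtain ⟨a', ea'⟩ := exists_incl e (hV1G a.2)
      refine ⟨a', show incl e a' ∈ D.W (v 2) from ea' ▸ h.V1_le_W a.2, c', (h.V3_le_C hc).1,
        incl_injective e ?_, fun f hf => incl_injective e ?_⟩
      · rw [map_commutatorElement, ea']; exact ha.symm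
      · rw [map_commutatorElement, _root_.map_one, sub_iff]
        exact D.comm _ (hY3 hf) _ hc
  · obtain ⟨a, ha, c, hc, es⟩ := hc2.exists_decomp D h.good ((hE.memS s).1 hs)
    obtain ⟨a, rfl⟩ := exists_incl e (hV4G ha)
    obtain ⟨c, rfl⟩ := exists_incl e (D.Q_le_G _ hc)
    exact ⟨a, ha, c, (hE.memQ c).2 hc, incl_injective e (by rw [_root_.map_mul]; exact es)⟩
  · obtain ⟨a, ha, c, hc, ed⟩ := h.decomp ((hE.memQ d).1 hd)
    obtain ⟨a, rfl⟩ := exists_incl e (hV1G ha)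
    obtain ⟨c, rfl⟩ := exists_incl e (D.Q_le_G _ hc.1)
    refine ⟨a, h.V1_le_W ha, ⁅u, c⁆,
      hR0 _ (by rw [map_commutatorElement]; exact h.comm_Q3 hc.2 hu), incl_injective e ?_⟩
    have hr := (h.R0_le (h.comm_Q3 hc.2 hu)).1
    have ed' : incl e d = incl e a * incl e c := ed
    rw [_root_.map_mul, map_commutatorElement, map_commutatorElement, map_commutatorElement, ed',
      comm_mul_right,
      D.comm _ ((h.V_le_Q (i := 1) (j := 2) (by omega) (by omega) le_rfl).1 ha) _ hr,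
      mul_inv_cancel_right]
  · have hsP := (hE.memS s).1 hs
    have hsw := h.comm_edge_W hsP (show incl e w ∈ D.W (v 2) from hw)
    obtain ⟨a, ha, ea⟩ := hC.exists_V3_psi (RM.ψ ⟨_, hsw.1⟩ 0)
    have hψ : RM.ψ ⟨_, hsw.1⟩ 1 = 0 := (hC.memM _).2 hsw.2
    obtain ⟨a', rfl⟩ := exists_incl e (h.W_le_G (h.V3_le_C ha).1)
    refine ⟨a', (h.V3_le_C ha).1, fun t ht => ?_, ?_⟩
    · show incl e ⁅t, a'⁆ ∈ RV.kerSub
      rw [map_commutatorElement]
      obtain ⟨y, hy, d, hd, et⟩ := hc2.exists_decomp D h.good ((hE.memS t).1 ht)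
      have hy3 := (h.V_le_Q (i := 3) (j := 4) (by omega) le_rfl le_rfl).2 hy
      have hcen := Two.Coords.comm_V_Q (h := h) (Or.inr ha) hd
      have hdV := h.comm_Q_W hd (h.V3_le_C ha).1
      have hdc : ∀ g ∈ D.Gv (v 2), g * ⁅d, incl e a'⁆ = ⁅d, incl e a'⁆ * g := fun g hg => by
        rw [← commutatorElement_inv]
        exact (Commute.inv_right (hcen g hg)).eq
      have et' : incl e t = y * d := et
      rw [et', comm_mul_left, hdc y (hV4G hy), mul_inv_cancel_right,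
        sub_iff.2 (D.comm y hy3 _ ha), mul_one]
      exact (mem_kerSub_iff RV hdV).2 fun g hg => Subgroup.mem_bot.2 (sub_iff.2 (hdc g hg))
    · show incl e (a'⁻¹ * ⁅s, w⁆) ∈ RM.kerSub
      rw [_root_.map_mul, _root_.map_inv, map_commutatorElement]
      refine ⟨(D.W _).mul_mem ((D.W _).inv_mem (h.V3_le_C ha).1) hsw.1, ?_⟩
      rw [show (⟨(incl e a')⁻¹ * ⁅incl e s, incl e w⁆, _⟩ : ↥(D.W (v 2))) =
          (⟨incl e a', (h.V3_le_C ha).1⟩ : ↥(D.W (v 2)))⁻¹ * ⟨_, hsw.1⟩ from rfl,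
        RM.map_mul, RM.map_inv, ea]
      funext i
      fin_cases i
      · simp
      · simpa using hψ
  · obtain ⟨w, s, hne⟩ := hC.exists_val_ne h5
    obtain ⟨w', ew⟩ := exists_incl e (h.W_le_G w.2)
    obtain ⟨s', es⟩ := exists_incl e (D.le_G h.edge s.2)
    refine ⟨w', show incl e w' ∈ D.W (v 2) from ew ▸ w.2, s', (hE.memS s').2 (by
      show incl e s' ∈ Pc 2
      rw [es]; exact s.2), fun hz => hne ?_⟩
    have hz' : incl e ⁅s', ⁅s', w'⁆⁆ ∈ RV.kerSub := hz
    have hm := hC.triple_mem w s s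
    have hcQ : ⁅(w : X), (s : X)⁆ ∈ D.Q (v 2) := h.W_le (Two.Coords.comm_W_edge (h := h) w.2 s.2).1
    have e1 : ⁅(s : X), ⁅(s : X), (w : X)⁆⁆ = ⁅⁅(w : X), (s : X)⁆, (s : X)⁆ := by
      have e2 : ⁅(s : X), ⁅(s : X), (w : X)⁆⁆ =
          ⁅(w : X), (s : X)⁆⁻¹ * ⁅⁅(w : X), (s : X)⁆, (s : X)⁆ * ⁅(w : X), (s : X)⁆ := by
        simp [commutatorElement_def, mul_assoc]
      rw [e2, mul_assoc, ← D.comm _ hcQ _ hm.1, inv_mul_cancel_left]
    rw [map_commutatorElement, map_commutatorElement, ew, es, e1] at hz'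
    obtain ⟨hz1, hz2⟩ := hz'
    exact congrFun hz2 0

end Sys

/-- `O^p(G)` is a block. -/
theorem exists_blockData {G : Type*} [Group G] [Finite G] {p : ℕ} [hp : Fact p.Prime] {n : ℕ}
    {S : Sylow p G} {V M : Subgroup G}
    (hB : Base G p (p ^ n) (S : Subgroup G) (pCore p G) V M)
    (hE₁ : Subgroup.centralizer (pCore p G : Set G) ≤ pCore p G) (F : Type) [Field F] [Fintype F]
    (hF : Fintype.card F = p ^ n) :
    BlockData p n (S : Subgroup G) (pCore p G) (pResidual p G) F := by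
  haveI : CharP F p := by
    obtain ⟨c, hc⟩ := CharP.exists F
    haveI := hc
    obtain ⟨m, hcp, hm⟩ := FiniteField.card F c
    have h1 : c ∣ p := hcp.dvd_of_dvd_pow (hF ▸ hm ▸ dvd_pow_self c m.pos.ne')
    rwa [(Nat.prime_dvd_prime_iff_eq hcp hp.out).1 h1] at hc
  set D := sys hB
  have htrans : ∀ x y : Vertex G, ∃ g : Equiv.Perm G, g • x = y := fun x y => sys_trans x y
  have hG : ∀ x, D.Good x := fun x => D.good_all F hF htrans x
  set P₀ := (S : Subgroup G).map (regRep G)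
  have hI₀ : D.I D.base P₀ := ⟨1, rfl, (cj_one _).symm⟩
  have hr : (regRep G).range = D.Gv D.base := stabilizer_base.symm
  let e : G ≃* ↥(D.Gv D.base) :=
    (MonoidHom.ofInjective regRep_injective).trans (MulEquiv.subgroupCongr hr)
  have hmap : ∀ (H : Subgroup G) (g : G), g ∈ H ↔ (e g : Equiv.Perm G) ∈ H.map (regRep G) := fun H g =>
    ⟨fun h => ⟨g, h, rfl⟩, fun ⟨a, ha, ea⟩ => regRep_injective (ea.trans rfl) ▸ ha⟩
  have hQb : D.Q D.base = (pCore p G).map (regRep G) := (cj_out hB.normQ 1).trans (cj_one _)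
  have hE : D.Env D.base P₀ e (pCore p G) (S : Subgroup G) :=
    ⟨hI₀, fun g => by rw [hQb]; exact hmap _ g, fun g => hmap _ g, hE₁, hB.pgroup, hB.normQ⟩
  rcases (show D.b = 1 ∨ D.b = 2 by
    have h1 := D.one_le_b; have h2 := D.b_le_two hG; omega) with hb | hb
  · obtain ⟨x, y, h, hV⟩ := D.exists_crit
    rw [hb] at h
    obtain ⟨z, hz, P, hxP, hyP⟩ := h
    cases hz
    have hc : D.Crit x y P P :=
      ⟨hxP, hyP, (D.V_le y).trans (D.Q_le hyP), (D.V_le x).trans (D.Q_le hxP), hV⟩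
    obtain ⟨g, hgx, hgP⟩ := D.exists_move htrans hxP hI₀
    have h1 := hc.smul D g
    rw [hgx, hgP] at h1
    obtain ⟨RV⟩ := D.exists_repV F hF hG htrans D.base
    exact Sys.blockData_one hF hE hG h1 RV n
  · obtain ⟨v, Pc, hch⟩ := D.exists_chain hG hb.ge 5
    have h : D.Two 5 v Pc := ⟨hG, hb, hch, by norm_num⟩
    obtain ⟨g, hgx, hgP⟩ := D.exists_move htrans h.edge hI₀
    have h' := h.smul D g
    have key : ∀ (v' : ℕ → Vertex G) (Pc' : ℕ → Subgroup (Equiv.Perm G)), D.Two 5 v' Pc' →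
        v' 2 = D.base → Pc' 2 = P₀ →
        BlockData p n (S : Subgroup G) (pCore p G) (pResidual p G) F := by
      intro v' Pc' h2 hv hP
      let e' : G ≃* ↥(D.Gv (v' 2)) := e.trans (MulEquiv.subgroupCongr (by rw [hv]))
      exact Sys.blockData_two (e := e') h2 le_rfl rfl hF
        ⟨by rw [hv, hP]; exact hI₀,
          fun g => (show g ∈ pCore p G ↔ ((e g : ↥(D.Gv D.base)) : Equiv.Perm G) ∈ D.Q (v' 2) by
            rw [hv]; exact hE.memQ g),
          fun g => (show g ∈ (S : Subgroup G) ↔ ((e g : ↥(D.Gv D.base)) : Equiv.Perm G) ∈ Pc' 2 by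
            rw [hP]; exact hE.memS g), hE₁, hB.pgroup, hB.normQ⟩
    exact key _ _ h' hgx hgP

theorem hasBlockData : HasBlockData.{u} := by
  intro G _ _ p _ S hE₁ hE₂ K _ F _ _ n hn hF hE₃ hd
  obtain ⟨V, M, hB⟩ := exists_base S hE₁ hE₂ K F n hn hF hE₃ hd
  rw [pResidualOf_top]
  exact exists_blockData hB hE₁ F hF

end CfsgLib.PushUp.RankOne
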