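import Cfsg.Agent.Lib.PushUp.RankOne.Planar
import Cfsg.Agent.Lib.PushUp.QdExtensionMain

/-!
Rank one pushing up: a planar group is `(V₁ ⋊ SL₂(q)) × D`.
-/

set_option autoImplicit false
set_option linter.unusedSectionVars false
set_option linter.style.haveILetI false

namespace CfsgLib.PushUp.RankOne

open Cfsg
open scoped commutatorElement MatrixGroups
open scoped Matrix
open CfsgLib.ClassicalLinear (upS upperSL upS_coe upS_add card_upperSL)
open CfsgLib.SL2Gen (lowS lowS_coe)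

variable {F : Type} [Field F]

local notation "M₂" => Matrix (Fin 2) (Fin 2) F

/-- Minus the identity. -/
def negS (F : Type) [Field F] : SL(2, F) := ⟨!![-1, 0; 0, -1], by simp [Matrix.det_fin_two]⟩

theorem negS_mulVec (u : Fin 2 → F) : ((negS F : SL(2, F)) : M₂) *ᵥ u = -u := by
  show !![(-1 : F), 0; 0, -1] *ᵥ u = -u
  funext i; fin_cases i <;> simp [Matrix.mulVec, dotProduct, Fin.sum_univ_two]

theorem negS_sq : negS F * negS F = 1 := by
  apply Subtype.ext
  rw [Matrix.SpecialLinearGroup.coe_mul, Matrix.SpecialLinearGroup.coe_one]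
  show !![(-1 : F), 0; 0, -1] * !![(-1 : F), 0; 0, -1] = 1
  ext i j; fin_cases i <;> fin_cases j <;> simp [Matrix.mul_apply]

theorem negS_comm (g : SL(2, F)) : negS F * g = g * negS F := by
  apply Subtype.ext
  rw [Matrix.SpecialLinearGroup.coe_mul, Matrix.SpecialLinearGroup.coe_mul]
  show !![(-1 : F), 0; 0, -1] * (g : M₂) = (g : M₂) * !![(-1 : F), 0; 0, -1]
  ext i j; fin_cases i <;> fin_cases j <;> simp [Matrix.mul_apply]

/-- A diagonal element. -/
def diagS (a : F) (ha : a ≠ 0) : SL(2, F) := ⟨!![a, 0; 0, a⁻¹], by simp [Matrix.det_fin_two, ha]⟩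

theorem diagS_coe (a : F) (ha : a ≠ 0) : ((diagS a ha : SL(2, F)) : M₂) = !![a, 0; 0, a⁻¹] := rfl

theorem diagS_pow (a : F) (ha : a ≠ 0) :
    ∀ k : ℕ, diagS a ha ^ k = diagS (a ^ k) (pow_ne_zero k ha)
  | 0 => by
    apply Subtype.ext
    rw [diagS_coe]
    simp [Matrix.one_fin_two]
  | k + 1 => by
    rw [pow_succ, diagS_pow a ha k]
    apply Subtype.ext
    rw [Matrix.SpecialLinearGroup.coe_mul, diagS_coe, diagS_coe, diagS_coe, pow_succ]
    ext i j; fin_cases i <;> fin_cases j <;> simp [Matrix.mul_apply, mul_comm]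

theorem diagS_conj_upS (a : F) (ha : a ≠ 0) (τ : F) :
    diagS a ha * upS τ * (diagS a ha)⁻¹ = upS (a ^ 2 * τ) := by
  rw [conj_upS (by simp [diagS_coe])]
  simp [diagS_coe]

/-- A normal subgroup of `SL₂` containing some commutators of a diagonal element is everything. -/
theorem normal_eq_top {a : F} (ha : a ≠ 0) (ha2 : a ^ 2 ≠ 1) {H : Subgroup (SL(2, F))} (hH : H.Normal)
    (h : ∀ τ, ⁅diagS a ha, upS τ⁆ ∈ H) : H = ⊤ := by
  have hu : ∀ τ, upS τ ∈ H := fun τ => by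
    have h1 := h (τ / (a ^ 2 - 1))
    rw [commutatorElement_def, diagS_conj_upS, mul_inv_eq_iff_eq_mul.2
      (show upS (a ^ 2 * (τ / (a ^ 2 - 1))) = upS τ * upS (τ / (a ^ 2 - 1)) by
        rw [← upS_add]; congr 1; field_simp [sub_ne_zero.2 ha2]; ring)] at h1
    exact h1
  refine eq_top_of_upper hu (h := weylS F * upS 1 * (weylS F)⁻¹) (hH.conj_mem _ (hu 1) _) ?_
  rw [Matrix.SpecialLinearGroup.coe_mul, Matrix.SpecialLinearGroup.coe_mul,
    Matrix.SpecialLinearGroup.coe_inv, weylS_coe, upS_coe, Matrix.adjugate_fin_two_of]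
  simp [Matrix.mul_apply, Fin.sum_univ_two]

/-- An alternating biadditive map invariant under simultaneous multiplication by squares vanishes. -/
theorem biadd_eq_zero [Fintype F] {p : ℕ} [hp : Fact p.Prime] [CharP F p] (hp5 : 5 ≤ p)
    {A : Type*} [AddCommGroup A] (β : F → F → A)
    (hl : ∀ s s' t, β (s + s') t = β s t + β s' t) (hr : ∀ s t t', β s (t + t') = β s t + β s t')
    (halt : ∀ s, β s s = 0) (hinv : ∀ l, l ≠ 0 → ∀ s t, β (l ^ 2 * s) (l ^ 2 * t) = β s t) :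
    ∀ s t, β s t = 0 := by
  have hl0 : ∀ t, β 0 t = 0 := fun t => by simpa using hl 0 0 t
  have hr0 : ∀ s, β s 0 = 0 := fun s => by simpa using hr s 0 0
  have hnat : ∀ m : ℕ, m ≠ 0 → m < p → (m : F) ≠ 0 := fun m h0 hlt h => by
    rw [CharP.cast_eq_zero_iff F p] at h
    exact absurd (Nat.le_of_dvd (Nat.pos_of_ne_zero h0) h) (by omega)
  by_cases hprime : p = 5 ∧ ∀ x : F, x ^ 5 = x
  · obtain ⟨rfl, hfix⟩ := hprime
    have hcard : Fintype.card F ≤ 5 := by
      obtain ⟨g, hg⟩ := IsCyclic.exists_generator (α := Fˣ)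
      have h1 : g ^ 4 = 1 := by
        have h2 : g ^ 4 * g = 1 * g := by
          rw [one_mul, ← pow_succ]; exact Units.ext (by simpa using hfix g)
        exact mul_right_cancel h2
      have h2 : Nat.card Fˣ ≤ 4 := by
        rw [← orderOf_eq_card_of_forall_mem_zpowers hg]
        exact orderOf_le_of_pow_eq_one (by norm_num) h1
      rw [Nat.card_units, Nat.card_eq_fintype_card] at h2
      omega
    have hsur : Function.Surjective (fun m : ZMod 5 => ZMod.castHom dvd_rfl F m) := by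
      refine ((Fintype.bijective_iff_injective_and_card _).2
        ⟨(ZMod.castHom dvd_rfl F).injective, le_antisymm ?_ (by simpa using hcard)⟩).surjective
      exact Fintype.card_le_of_injective _ (ZMod.castHom dvd_rfl F).injective
    have hm : ∀ (m : ℕ) t, β (m : F) t = m • β 1 t := fun m t => by
      induction m with
      | zero => simp [hl0]
      | succ m ih => rw [Nat.cast_succ, hl, ih, succ_nsmul]
    have hm' : ∀ (m : ℕ), β 1 (m : F) = m • β 1 1 := fun m => by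
      induction m with
      | zero => simp [hr0]
      | succ m ih => rw [Nat.cast_succ, hr, ih, succ_nsmul]
    intro s t
    obtain ⟨a, rfl⟩ := hsur s
    obtain ⟨b, rfl⟩ := hsur t
    have e : ∀ c : ZMod 5, ZMod.castHom dvd_rfl F c = ((c.val : ℕ) : F) := fun c => by
      conv_lhs => rw [← ZMod.natCast_zmod_val c]
      exact map_natCast _ _
    simp only [e]
    rw [hm, hm', halt, nsmul_zero, nsmul_zero]
  -- a good scalar
  obtain ⟨l, hl1, hl2, hl3, hl4, hl5⟩ : ∃ l : F, l ≠ 0 ∧ l + 1 ≠ 0 ∧ l - 1 ≠ 0 ∧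
      l ^ 2 + 1 ≠ 0 ∧ l ^ 4 - 3 * l ^ 2 + 1 ≠ 0 := by
    by_cases h5 : p = 5
    · subst h5
      push Not at hprime
      obtain ⟨l, hl⟩ := hprime rfl
      have h50 : (5 : F) = 0 := by exact_mod_cast CharP.cast_eq_zero F 5
      have hroot : ∀ c : F, c ^ 5 = c → l ≠ c := fun c hc h => hl (h ▸ hc)
      have h1 : l ^ 2 + 1 ≠ 0 := fun h => by
        have h2 : (l - 2) * (l + 2) = 0 := by linear_combination h - h50
        rcases mul_eq_zero.1 h2 with h3 | h3
        · exact hroot 2 (by linear_combination (6 : F) * h50) (sub_eq_zero.1 h3)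
        · exact hroot (-2) (by linear_combination (-6 : F) * h50) (eq_neg_of_add_eq_zero_left h3)
      refine ⟨l, fun h => hroot 0 (by simp) h,
        fun h => hroot (-1) (by norm_num) (eq_neg_of_add_eq_zero_left h),
        fun h => hroot 1 (by simp) (sub_eq_zero.1 h), h1, fun h => h1 ?_⟩
      refine mul_self_eq_zero.1 ?_
      linear_combination h + l ^ 2 * h50
    · have h7 : 7 ≤ p := by
        rcases Nat.lt_or_ge p 7 with h | h
        · interval_cases p
          · exact absurd rfl h5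
          · exact absurd hp.out (by norm_num)
        · exact h
      have h2 := hnat 2 (by norm_num) (by omega)
      have h3 := hnat 3 (by norm_num) (by omega)
      have h5' := hnat 5 (by norm_num) (by omega)
      push_cast at h2 h3 h5'
      refine ⟨2, h2, by norm_num; exact h3, by norm_num, by norm_num; exact h5', ?_⟩
      norm_num
      exact h5'
  have hsq : ∀ x : F, x ≠ 0 → ∀ t, β (x ^ 2) t = β 1 (t / x ^ 2) := fun x hx t => by
    have := hinv x hx 1 (t / x ^ 2)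
    rwa [mul_one, mul_div_cancel₀ _ (pow_ne_zero 2 hx)] at this
  set c := ((l + 1) ^ 2)⁻¹ + ((l - 1) ^ 2)⁻¹ - (l ^ 2)⁻¹ - (l ^ 2)⁻¹ - 1 - 1 with hc
  have hc0 : c ≠ 0 := by
    have h2 : (2 : F) ≠ 0 := by exact_mod_cast hnat 2 (by norm_num) (by omega)
    have e : c * (l ^ 2 * (l + 1) ^ 2 * (l - 1) ^ 2) = -2 * (l ^ 2 + 1) * (l ^ 4 - 3 * l ^ 2 + 1) := by
      rw [hc]; field_simp; ring
    intro h
    rw [h, zero_mul] at e
    rcases mul_eq_zero.1 e.symm with h' | h'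
    · rcases mul_eq_zero.1 h' with h'' | h''
      · exact h2 (neg_eq_zero.1 h'')
      · exact hl4 h''
    · exact hl5 h'
  have hneg : ∀ s t, β s (-t) = -β s t := fun s t => eq_neg_of_add_eq_zero_left (by
    rw [← hr, neg_add_cancel, hr0])
  have hsub : ∀ s t t', β s (t - t') = β s t - β s t' := fun s t t' => by
    rw [sub_eq_add_neg, hr, hneg, ← sub_eq_add_neg]
  have hone : ∀ t, β 1 t = 0 := by
    intro t
    obtain ⟨τ, rfl⟩ : ∃ τ, τ * c = t := ⟨t / c, div_mul_cancel₀ t hc0⟩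
    have e : β ((l + 1) ^ 2) τ + β ((l - 1) ^ 2) τ = β (l ^ 2) τ + β (l ^ 2) τ + β 1 τ + β 1 τ := by
      rw [← hl, ← hl, ← hl, ← hl]; congr 1; ring
    rw [hsq _ hl2, hsq _ hl3, hsq _ hl1] at e
    rw [hc, show τ * (((l + 1) ^ 2)⁻¹ + ((l - 1) ^ 2)⁻¹ - (l ^ 2)⁻¹ - (l ^ 2)⁻¹ - 1 - 1) =
      τ / (l + 1) ^ 2 + τ / (l - 1) ^ 2 - τ / l ^ 2 - τ / l ^ 2 - τ - τ by ring,
      hsub, hsub, hsub, hsub, hr, e]
    abel
  have hsq0 : ∀ x t, β (x ^ 2) t = 0 := fun x t => by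
    by_cases hx : x = 0
    · rw [hx, zero_pow two_ne_zero, hl0]
    · rw [hsq x hx, hone]
  intro s t
  have h2 : (2 : F) ≠ 0 := by exact_mod_cast hnat 2 (by norm_num) (by omega)
  have e : s + ((s - 1) / 2) ^ 2 = ((s + 1) / 2) ^ 2 := by field_simp; ring
  have h := hl s (((s - 1) / 2) ^ 2) t
  rw [e, hsq0, hsq0, add_zero] at h
  exact h.symm

variable {G : Type*} [Group G] [Finite G] {p : ℕ} [hp : Fact p.Prime]
variable {Q S V Z N : Subgroup G}

/-- The splitting of a planar group. -/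
structure Split (p : ℕ) (Q : Subgroup G) (R : NatSection V Z F) (t : G) (V₁ C D : Subgroup G) :
    Prop where
  t_mem : t ∈ C
  rho_t : R.ρ t = negS F
  V₁_le : V₁ ≤ V
  inv : ∀ v ∈ V₁, t * v * t⁻¹ = v⁻¹
  surjV : ∀ u, ∃ (v : G) (hv : v ∈ V₁), R.ψ ⟨v, V₁_le hv⟩ = u
  injV : ∀ (v : G) (hv : v ∈ V₁), R.ψ ⟨v, V₁_le hv⟩ = 0 → v = 1
  D_le : D ≤ Q
  fix : ∀ d ∈ D, t * d = d * t
  surjC : ∀ γ, ∃ c ∈ C, R.ρ c = γ
  injC : ∀ c ∈ C, R.ρ c = 1 → c = 1
  commCD : ∀ c ∈ C, ∀ d ∈ D, c * d = d * c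
  commVD : ∀ v ∈ V₁, ∀ d ∈ D, v * d = d * v
  normV₁ : ∀ g : G, ∀ v ∈ V₁, g * v * g⁻¹ ∈ V₁
  decomp : ∀ g : G, ∃ v ∈ V₁, ∃ c ∈ C, ∃ d ∈ D, g = v * c * d

theorem Planar.exists_split [Fintype F] [CharP F p] {R : NatSection V Z F}
    (hP : Planar p Q S V Z N R) (hp5 : 5 ≤ p) :
    ∃ t V₁ C D, Split p Q R t V₁ C D := by
  obtain ⟨l, hl⟩ := hp.out.odd_of_ne_two (by omega)
  have hQS : Q ≤ S := fun a ha => (hP.upper a).2 ⟨0, by
    rw [(hP.kerρ a).2 ha]; exact (Matrix.SpecialLinearGroup.transvection_coeff_zero _).symm⟩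
  have hpowQ : ∀ a ∈ Q, a ^ p = 1 := fun a ha => hP.powS a (hQS ha)
  have h2F : (2 : F) ≠ 0 := fun h => by
    have h' : ((2 : ℕ) : F) = 0 := by exact_mod_cast h
    rw [CharP.cast_eq_zero_iff F p] at h'
    have := Nat.le_of_dvd two_pos h'
    omega
  have h3F : (3 : F) ≠ 0 := fun h => by
    have h' : ((3 : ℕ) : F) = 0 := by exact_mod_cast h
    rw [CharP.cast_eq_zero_iff F p] at h'
    have := Nat.le_of_dvd (by norm_num) h'
    omega
  have half : ∀ {w : G}, w ^ p = 1 → w ^ (l + 1) * w ^ (l + 1) = w := fun {w} hw => by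
    rw [← pow_add, show l + 1 + (l + 1) = p + 1 by omega, pow_succ, hw, one_mul]
  have hsq : ∀ {w : G}, w ^ p = 1 → w * w = 1 → w = 1 := fun {w} hw hw2 => by
    rw [hl, pow_succ, pow_mul, pow_two, hw2, one_pow, one_mul] at hw; exact hw
  -- the involution
  obtain ⟨g₀, hg₀⟩ := R.surjρ (negS F)
  set t := g₀ ^ p with ht
  have htρ : R.ρ t = negS F := by
    rw [ht, map_pow, hg₀, hl, pow_succ, pow_mul, pow_two, negS_sq, one_pow, one_mul]
  have htt : t * t = 1 := by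
    rw [ht, ← (Commute.refl g₀).mul_pow]
    exact hpowQ _ ((hP.kerρ _).1 (by rw [map_mul, hg₀, negS_sq]))
  have hti : t⁻¹ = t := inv_eq_of_mul_eq_one_right htt
  haveI := hP.normN
  have hcopN : ∀ k : G, (orderOf k).Coprime p → k ∈ N := fun k hk => by
    obtain ⟨n, hn, s, hs, e⟩ := Subgroup.mem_sup_of_normal_left.1
      (hP.sup ▸ Subgroup.mem_top k : k ∈ N ⊔ S)
    have h1 : k ^ p ∈ N := by
      rw [← QuotientGroup.eq_one_iff, QuotientGroup.mk_pow, ← e, QuotientGroup.mk_mul,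
        (QuotientGroup.eq_one_iff n).2 hn, one_mul, ← QuotientGroup.mk_pow, hP.powS s hs,
        QuotientGroup.mk_one]
    obtain ⟨m, hm⟩ := exists_pow_eq_self_of_coprime (x := k) hk.symm
    rw [← hm]; exact N.pow_mem h1 m
  have htN : t ∈ N := hcopN t (by
    have h1 : orderOf t ∣ 2 := orderOf_dvd_of_pow_eq_one (by rw [pow_two]; exact htt)
    exact Nat.Coprime.coprime_dvd_left h1 ((Nat.coprime_primes Nat.prime_two hp.out).2 (by omega)))
  have hVt : ∀ a ∈ V, t * a * t⁻¹ ∈ V := fun a ha => R.normal.conj_mem a ha t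
  have hψt : ∀ a (ha : a ∈ V), R.ψ ⟨_, hVt a ha⟩ = -R.ψ ⟨a, ha⟩ := fun a ha => by
    rw [R.equiv t ⟨a, ha⟩ ⟨_, hVt a ha⟩ rfl, htρ, negS_mulVec]
  -- the two parts
  let V₁ : Subgroup G :=
    { carrier := {v | v ∈ V ∧ t * v * t⁻¹ = v⁻¹}
      one_mem' := ⟨V.one_mem, by simp⟩
      mul_mem' := fun {a b} ha hb => ⟨V.mul_mem ha.1 hb.1, by
        rw [← conj_mul, ha.2, hb.2, ← mul_inv_rev, hP.comm a (hP.V_le ha.1) b hb.1]⟩
      inv_mem' := fun {a} ha => ⟨V.inv_mem ha.1, by rw [← conj_inv, ha.2]⟩ }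
  set L := Subgroup.centralizer ({t} : Set G)
  have hmemL : ∀ {g : G}, g ∈ L ↔ t * g * t⁻¹ = g := fun {g} => by
    rw [Subgroup.mem_centralizer_singleton_iff, mul_inv_eq_iff_eq_mul]
    exact ⟨fun h => h.symm, fun h => h.symm⟩
  set D := Q ⊓ L
  have hDV : ∀ a ∈ L, ∀ (ha : a ∈ V), R.ψ ⟨a, ha⟩ = 0 := fun a haL ha => by
    have h1 := hψt a ha
    have e : (⟨_, hVt a ha⟩ : ↥V) = ⟨a, ha⟩ := Subtype.ext (hmemL.1 haL)
    rw [e] at h1
    funext i
    have h2 := congrFun h1 i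
    rw [Pi.neg_apply] at h2
    refine (mul_eq_zero.1 (?_ : (2 : F) * R.ψ ⟨a, ha⟩ i = 0)).resolve_left h2F
    linear_combination h2
  have hdec : ∀ a ∈ Q, ∃ v ∈ V₁, ∃ d ∈ D, a = v * d := fun a ha => by
    set w := ⁅t, a⁆ with hw
    have hwV : w ∈ V := hP.trivQ t htN a ha
    have hwi : t * w * t⁻¹ = w⁻¹ := by
      rw [hw, commutatorElement_def, hti]
      simp only [mul_inv_rev, hti, inv_inv, ← mul_assoc, htt, one_mul]
    set u := w ^ (l + 1) with hu
    have huV : u ∈ V₁ := ⟨V.pow_mem hwV _, by rw [hu, ← conj_pow, hwi, inv_pow]⟩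
    have huu : u * u = w := half (hpowQ w (hP.V_le hwV))
    refine ⟨u⁻¹, V₁.inv_mem huV, u * a, ⟨Q.mul_mem (hP.V_le huV.1) ha, hmemL.2 ?_⟩, by simp⟩
    calc t * (u * a) * t⁻¹ = (t * u * t⁻¹) * (w * a) := by
          simp [hw, commutatorElement_def, mul_assoc]
      _ = u * a := by rw [huV.2, ← huu]; simp [mul_assoc]
  have hVL : ∀ g : G, ∃ u ∈ V₁, ∃ k ∈ L, g = u * k := fun g => by
    set a := ⁅t, g⁆ with ha
    have haQ : a ∈ Q := (hP.kerρ a).1 (by
      rw [ha, map_commutatorElement, htρ, commutatorElement_eq_one_iff_mul_comm]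
      exact negS_comm _)
    have hai : t * a * t⁻¹ = a⁻¹ := by
      rw [ha, commutatorElement_def, hti]
      simp only [mul_inv_rev, hti, inv_inv, ← mul_assoc, htt, one_mul]
    obtain ⟨v, hv, d, hd, e⟩ := hdec a haQ
    have hd1 : d = 1 := hsq (hpowQ d hd.1) (by
      rw [e, ← conj_mul, hv.2, hmemL.1 hd.2, mul_inv_rev,
        hP.comm d⁻¹ (Q.inv_mem hd.1) v⁻¹ (V.inv_mem hv.1)] at hai
      have := mul_left_cancel hai
      calc d * d = d * d⁻¹ := by rw [← this]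
        _ = 1 := mul_inv_cancel d)
    rw [hd1, mul_one] at e
    set u := v ^ (l + 1)
    have huu : u * u = v := half (hpowQ v (hP.V_le hv.1))
    have huV : u ∈ V₁ := V₁.pow_mem hv _
    refine ⟨u⁻¹, V₁.inv_mem huV, u * g, hmemL.2 ?_, by simp⟩
    calc t * (u * g) * t⁻¹ = (t * u * t⁻¹) * (v * g) := by
          rw [← e, ha]; simp [commutatorElement_def, mul_assoc]
      _ = u * g := by rw [huV.2, ← huu]; simp [mul_assoc]
  have hLD : ∀ k ∈ L, R.ρ k = 1 → k ∈ D := fun k hk h => ⟨(hP.kerρ k).1 h, hk⟩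
  have hρL : ∀ γ, ∃ k ∈ L, R.ρ k = γ := fun γ => by
    obtain ⟨g, rfl⟩ := R.surjρ γ
    obtain ⟨u, hu, k, hk, rfl⟩ := hVL g
    exact ⟨k, hk, by rw [map_mul, (hP.kerρ u).2 (hP.V_le hu.1), one_mul]⟩
  -- the subgroup generated by the elements of order prime to `p`
  set T : Set G := {k | k ∈ L ∧ (orderOf k).Coprime p}
  set K := Subgroup.closure T with hK
  have hKL : K ≤ L := (Subgroup.closure_le L).2 fun k hk => hk.1
  have hKD : K ≤ Subgroup.centralizer (D : Set G) := (Subgroup.closure_le _).2 fun k hk d hd => by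
    obtain ⟨hkL, hkc⟩ := hk
    set c := ⁅k, d⁆ with hc
    have hcV : c ∈ V := hP.trivQ k (hcopN k hkc) d hd.1
    have hcL : c ∈ L := L.mul_mem (L.mul_mem (L.mul_mem hkL hd.2) (L.inv_mem hkL)) (L.inv_mem hd.2)
    have hcZ : c ∈ Z := (R.ker ⟨c, hcV⟩).1 (hDV c hcL hcV)
    have h1 : c = 1 := Sys.eq_one_of_fixed (p := p) (k := k) (a := d) (m := 1) hkc
      (by simp [hc, commutatorElement_def]) (hP.central c hcZ k)
      (by rw [pow_one]; exact hpowQ c (hP.V_le hcV))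
    exact (sub_iff.1 h1).symm
  have hKn : ∀ g ∈ L, ∀ k ∈ K, g * k * g⁻¹ ∈ K := fun g hg k hk => by
    induction hk using Subgroup.closure_induction with
    | mem x hx =>
      refine Subgroup.subset_closure ⟨L.mul_mem (L.mul_mem hg hx.1) (L.inv_mem hg), ?_⟩
      show (orderOf ((MulAut.conj g).toMonoidHom x)).Coprime p
      rw [orderOf_injective (MulAut.conj g).toMonoidHom (MulAut.conj g).injective x]
      exact hx.2
    | one => simp
    | mul a b _ _ ha hb => rw [← conj_mul]; exact K.mul_mem ha hb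
    | inv a _ ha => rw [← conj_inv]; exact K.inv_mem ha
  have hHn : (K.map R.ρ).Normal := ⟨by
    rintro _ ⟨k, hk, rfl⟩ γ
    obtain ⟨g, hg, rfl⟩ := hρL γ
    exact ⟨_, hKn g hg k hk, by rw [map_mul, map_mul, map_inv]⟩⟩
  set δ := diagS (2 : F) h2F with hδ
  have h4 : (2 : F) ^ 2 ≠ 1 := fun h => h3F (by linear_combination h)
  have hδK : δ ∈ K.map R.ρ := by
    obtain ⟨g, hg, hgρ⟩ := hρL δ
    obtain ⟨a, r, hr, hord⟩ := Nat.exists_eq_pow_mul_and_not_dvd (orderOf_pos g).ne' p hp.out.ne_one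
    refine ⟨g ^ p ^ a, Subgroup.subset_closure ⟨L.pow_mem hg _, ?_⟩, ?_⟩
    · rw [orderOf_pow_of_dvd (pow_ne_zero _ hp.out.ne_zero) (hord ▸ dvd_mul_right _ _), hord,
        Nat.mul_div_cancel_left _ (pow_pos hp.out.pos _)]
      exact ((hp.out.coprime_iff_not_dvd).2 hr).symm
    · rw [map_pow, hgρ, hδ, diagS_pow]
      apply Subtype.ext
      rw [diagS_coe, diagS_coe]
      have e : (2 : F) ^ p ^ a = 2 := by
        rw [← iterateFrobenius_def]; exact map_ofNat _ 2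
      rw [e]
  have hKtop : K.map R.ρ = ⊤ := normal_eq_top h2F h4 hHn fun τ => by
    rw [commutatorElement_def, mul_assoc δ (upS τ), mul_assoc δ]
    exact Subgroup.mul_mem _ hδK (hHn.conj_mem _ (Subgroup.inv_mem _ hδK) _)
  set C := ⁅K, K⁆ with hC
  have hCK : C ≤ K := lowerCentralSeries_le_self K 1
  have hCtop : C.map R.ρ = ⊤ := by
    rw [hC, Subgroup.map_commutator, hKtop]
    exact normal_eq_top h2F h4 inferInstance fun τ =>
      Subgroup.commutator_mem_commutator (Subgroup.mem_top _) (Subgroup.mem_top _)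
  -- the Sylow subgroup of `K` is abelian
  set f := R.ρ.comp K.subtype with hf
  have hfs : Function.Surjective f := fun γ => by
    obtain ⟨k, hk, e⟩ : γ ∈ K.map R.ρ := hKtop ▸ Subgroup.mem_top γ
    exact ⟨⟨k, hk⟩, e⟩
  have hcen : ∀ z : ↥K, f z = 1 → z ∈ Subgroup.center ↥K := fun z hz =>
    Subgroup.mem_center_iff.2 fun g => Subtype.ext ((hKD g.2) _ (hLD z (hKL z.2) hz)).symm
  choose lift hlift using fun τ => hfs (upS τ)
  have hcomm : ∀ s u, ⁅lift s, lift u⁆ ∈ Subgroup.center ↥K := fun s u => hcen _ (by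
    rw [map_commutatorElement, hlift, hlift, commutatorElement_eq_one_iff_mul_comm, ← upS_add,
      ← upS_add, add_comm])
  have hwell : ∀ (a b : ↥K) (s u : F), f a = upS s → f b = upS u →
      ⁅a, b⁆ = ⁅lift s, lift u⁆ := fun a b s u ha hb => by
    have hz := hcen ((lift s)⁻¹ * a) (by rw [map_mul, map_inv, ha, hlift, inv_mul_cancel])
    have hz' := hcen ((lift u)⁻¹ * b) (by rw [map_mul, map_inv, hb, hlift, inv_mul_cancel])
    have h1 : ∀ {z x : ↥K}, z ∈ Subgroup.center ↥K → ⁅z, x⁆ = 1 ∧ ⁅x, z⁆ = 1 := fun hz =>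
      ⟨sub_iff.2 (Subgroup.mem_center_iff.1 hz _).symm, sub_iff.2 (Subgroup.mem_center_iff.1 hz _)⟩
    rw [show a = lift s * ((lift s)⁻¹ * a) by simp, show b = lift u * ((lift u)⁻¹ * b) by simp,
      comm_mul_left, (h1 hz).1, comm_mul_right, (h1 hz').2]
    simp
  letI : CommGroup ↥(Subgroup.center ↥K) :=
    { (inferInstance : Group ↥(Subgroup.center ↥K)) with
      mul_comm := fun a b => Subtype.ext (Subgroup.mem_center_iff.1 b.2 (a : ↥K)) }
  let β : F → F → Additive ↥(Subgroup.center ↥K) := fun s u => Additive.ofMul ⟨_, hcomm s u⟩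
  have hβ := biadd_eq_zero (p := p) hp5 β
    (fun s s' u => by
      refine congrArg Additive.ofMul (Subtype.ext ?_)
      show ⁅lift (s + s'), lift u⁆ = ⁅lift s, lift u⁆ * ⁅lift s', lift u⁆
      rw [← hwell (lift s' * lift s) (lift u) (s + s') u
        (by rw [map_mul, hlift, hlift, ← upS_add, add_comm]) (hlift u), comm_mul_left,
        (Subgroup.mem_center_iff.1 (hcomm s u) (lift s')), mul_inv_cancel_right])
    (fun s u u' => by
      refine congrArg Additive.ofMul (Subtype.ext ?_)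
      show ⁅lift s, lift (u + u')⁆ = ⁅lift s, lift u⁆ * ⁅lift s, lift u'⁆
      rw [← hwell (lift s) (lift u * lift u') s (u + u') (hlift s)
        (by rw [map_mul, hlift, hlift, ← upS_add]), comm_mul_right,
        (Subgroup.mem_center_iff.1 (hcomm s u') (lift u)), mul_inv_cancel_right])
    (fun s => congrArg Additive.ofMul (Subtype.ext (commutatorElement_self _)))
    (fun a ha s u => by
      refine congrArg Additive.ofMul (Subtype.ext ?_)
      show ⁅lift (a ^ 2 * s), lift (a ^ 2 * u)⁆ = ⁅lift s, lift u⁆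
      obtain ⟨k, hk⟩ := hfs (diagS a ha)
      have hc : ∀ w, f (k * lift w * k⁻¹) = upS (a ^ 2 * w) := fun w => by
        rw [map_mul, map_mul, map_inv, hk, hlift, diagS_conj_upS]
      rw [← hwell _ _ _ _ (hc s) (hc u)]
      calc ⁅k * lift s * k⁻¹, k * lift u * k⁻¹⁆ = k * ⁅lift s, lift u⁆ * k⁻¹ := by
            simp [commutatorElement_def, mul_assoc]
        _ = _ := by rw [Subgroup.mem_center_iff.1 (hcomm s u) k, mul_inv_cancel_right])
  set P : Subgroup ↥K := (upperSL (F := F)).comap f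
  haveI : IsMulCommutative P := ⟨⟨fun ⟨a, ha⟩ ⟨b, hb⟩ => by
    obtain ⟨s, hs⟩ := ha
    obtain ⟨u, hu⟩ := hb
    refine Subtype.ext (commutatorElement_eq_one_iff_mul_comm.1 ?_)
    rw [hwell a b s u hs.symm hu.symm]
    exact congrArg (fun z : Additive ↥(Subgroup.center ↥K) =>
      ((z.toMul : ↥(Subgroup.center ↥K)) : ↥K)) (hβ s u)⟩⟩
  have hidx : P.index.Coprime p := by
    rw [Subgroup.index_comap_of_surjective _ hfs]
    have h1 := (upperSL (F := F)).card_mul_index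
    rw [card_upperSL, CfsgLib.SL2.card_SL] at h1
    rw [Nat.eq_of_mul_eq_mul_left Nat.card_pos h1]
    refine ((hp.out.coprime_iff_not_dvd).2 fun hd => ?_).symm
    have h2 : p ∣ Nat.card F ^ 2 := by
      obtain ⟨m, -, hm⟩ := FiniteField.card F p
      rw [Nat.card_eq_fintype_card, hm]
      exact dvd_pow (dvd_pow_self p m.pos.ne') two_ne_zero
    have h3 := Nat.dvd_sub h2 hd
    rw [Nat.sub_sub_self (Nat.one_le_pow _ _ Nat.card_pos)] at h3
    exact hp.out.one_lt.ne' (Nat.dvd_one.1 h3)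
  have hinj : ∀ c ∈ C, R.ρ c = 1 → c = 1 := fun c hc hρ => by
    have hcK : (⟨c, hCK hc⟩ : ↥K) ∈ commutator ↥K := by
      have e : (commutator ↥K).map K.subtype = C := by
        rw [commutator_def, Subgroup.map_commutator, ← MonoidHom.range_eq_map, Subgroup.range_subtype]
      obtain ⟨y, hy, e'⟩ := e.ge hc
      rwa [show (⟨c, hCK hc⟩ : ↥K) = y from Subtype.ext e'.symm]
    refine congrArg Subtype.val (CfsgLib.PushUp.eq_one_of_central_commutator (p := p) (P := P) hidx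
      (z := ⟨c, hCK hc⟩) ?_ (hcen _ hρ) hcK (k := 1) (Subtype.ext ?_))
    · exact ⟨0, (Matrix.SpecialLinearGroup.transvection_coeff_zero _).trans hρ.symm⟩
    · rw [pow_one]; simpa using hpowQ c ((hP.kerρ c).1 hρ)
  have hCs : ∀ γ, ∃ c ∈ C, R.ρ c = γ := fun γ => by
    obtain ⟨c, hc, e⟩ : γ ∈ C.map R.ρ := hCtop ▸ Subgroup.mem_top γ
    exact ⟨c, hc, e⟩
  have hCD : ∀ c ∈ C, ∀ d ∈ D, c * d = d * c := fun c hc d hd => ((hKD (hCK hc)) d hd).symm
  have htC : t ∈ C := by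
    obtain ⟨c, hc, hcρ⟩ := hCs (negS F)
    have hd : c⁻¹ * t ∈ D := hLD _ (L.mul_mem (L.inv_mem (hKL (hCK hc)))
      (Subgroup.mem_centralizer_singleton_iff.2 rfl)) (by rw [map_mul, map_inv, hcρ, htρ, inv_mul_cancel])
    have hcc : c * c = 1 := hinj _ (C.mul_mem hc hc) (by rw [map_mul, hcρ, negS_sq])
    have hci : c⁻¹ = c := inv_eq_of_mul_eq_one_right hcc
    have h1 : c⁻¹ * t = 1 := hsq (hpowQ _ hd.1) (by
      have e1 : c * (c⁻¹ * t) = (c⁻¹ * t) * c := hCD c hc _ hd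
      have e2 : (c * (c⁻¹ * t)) * (c * (c⁻¹ * t)) = 1 := by rw [mul_inv_cancel_left]; exact htt
      calc (c⁻¹ * t) * (c⁻¹ * t) = (c * c) * ((c⁻¹ * t) * (c⁻¹ * t)) := by rw [hcc, one_mul]
        _ = c * (c * (c⁻¹ * t)) * (c⁻¹ * t) := by simp [mul_assoc]
        _ = c * ((c⁻¹ * t) * c) * (c⁻¹ * t) := by rw [e1]
        _ = (c * (c⁻¹ * t)) * (c * (c⁻¹ * t)) := by simp [mul_assoc]
        _ = 1 := e2)
    rwa [← inv_mul_eq_one.1 h1]
  refine ⟨t, V₁, C, D, ⟨htC, htρ, fun v hv => hv.1, fun v hv => hv.2, fun u => ?_, fun v hv h0 => ?_,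
    inf_le_left, fun d hd => (Subgroup.mem_centralizer_singleton_iff.1 hd.2).symm, hCs, hinj, hCD,
    fun v hv d hd => (hP.comm d hd.1 v hv.1).symm, fun g v hv => ?_, fun g => ?_⟩⟩
  · obtain ⟨⟨a, ha⟩, rfl⟩ := R.surjψ u
    obtain ⟨v, hv, d, hd, rfl⟩ := hdec a (hP.V_le ha)
    have hdV : d ∈ V := by simpa using V.mul_mem (V.inv_mem hv.1) ha
    refine ⟨v, hv, ?_⟩
    rw [show (⟨v * d, ha⟩ : ↥V) = ⟨v, hv.1⟩ * ⟨d, hdV⟩ from rfl, R.map_mul, hDV d hd.2 hdV, add_zero]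
  · have hvc := hP.central v ((R.ker ⟨v, hv.1⟩).1 h0) t
    refine hsq (hpowQ v (hP.V_le hv.1)) ?_
    have h1 := hv.2
    rw [hvc, mul_inv_cancel_right] at h1
    nth_rewrite 1 [h1]
    exact inv_mul_cancel v
  · obtain ⟨u, hu, k, hk, rfl⟩ := hVL g
    have h1 : k * v * k⁻¹ ∈ V₁ := ⟨R.normal.conj_mem v hv.1 k, by
      have htk : t * k = k * t := (Subgroup.mem_centralizer_singleton_iff.1 hk).symm
      calc t * (k * v * k⁻¹) * t⁻¹ = (t * k) * v * (t * k)⁻¹ := by simp [mul_assoc]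
        _ = k * (t * v * t⁻¹) * k⁻¹ := by rw [htk]; simp [mul_assoc]
        _ = (k * v * k⁻¹)⁻¹ := by rw [hv.2, conj_inv]⟩
    simpa [mul_assoc] using V₁.mul_mem (V₁.mul_mem hu h1) (V₁.inv_mem hu)
  · obtain ⟨u, hu, k, hk, rfl⟩ := hVL g
    obtain ⟨c, hc, hcρ⟩ := hCs (R.ρ k)
    exact ⟨u, hu, c, hc, c⁻¹ * k, hLD _ (L.mul_mem (L.inv_mem (hKL (hCK hc))) hk)
      (by rw [map_mul, map_inv, hcρ, inv_mul_cancel]), by simp [mul_assoc]⟩

end CfsgLib.PushUp.RankOne
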