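import Cfsg.Prelude.Def_BaumannBlocks

/-!
The block `O^p(G)` of a rank one pushing up group: what has to be exported for the minimal parabolic case.
-/

set_option autoImplicit false

universe u

namespace CfsgLib.PushUp.RankOne

open Cfsg
open scoped commutatorElement

/-- `L` has all the properties of a block with respect to the `p`-group `S` of the group with core `Q`. -/
structure BlockData {G : Type*} [Group G] (p n : ℕ) (S Q L : Subgroup G) (F : Type) [Field F] : Prop where
  res : pResidualOf p L = L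
  comm : ⁅L, S⁆ = L
  core : pCoreOf p L = L ⊓ Q
  coreComm : ⁅pCoreOf p L, L⁆ = pCoreOf p L
  quot : Nonempty (↥L ⧸ pCore p ↥L ≃* ↥(commutator (Matrix.SpecialLinearGroup (Fin 2) F)))
  natural : ActsAsSL2OnSection F (commutator (Matrix.SpecialLinearGroup (Fin 2) F)) L
    (omegaOneCenter p (pCoreOf p L)) (omegaOneCenter p (pCoreOf p L) ⊓ Subgroup.centralizer (L : Set G))
  shape : (pCoreOf p L = omegaOneCenter p (pCoreOf p L) ∧
      ∃ u ∈ S, u ∉ Q ∧ u ^ p = 1 ∧ ∀ a ∈ Q, ⁅u, a⁆ ∈ pCoreOf p L) ∨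
    (p = 3 ∧
      ActsAsSL2OnSection F (commutator (Matrix.SpecialLinearGroup (Fin 2) F)) L
        (pCoreOf p L) (omegaOneCenter p (pCoreOf p L)) ∧
      ⁅pCoreOf p L, pCoreOf p L⁆ = omegaOneCenter p (pCoreOf p L) ⊓ Subgroup.centralizer (L : Set G) ∧
      (frattini ↥(pCoreOf p L)).map (pCoreOf p L).subtype =
        omegaOneCenter p (pCoreOf p L) ⊓ Subgroup.centralizer (L : Set G) ∧
      L ⊓ Subgroup.centralizer (L : Set G) =
        omegaOneCenter p (pCoreOf p L) ⊓ Subgroup.centralizer (L : Set G) ∧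
      Nat.card ↥(L ⊓ Subgroup.centralizer (L : Set G)) = 3 ^ n ∧
      ∀ b : G, b ∈ S → b ∉ Subgroup.centralizer (omegaOneCenter p (pCoreOf p L) : Set G) →
        ¬ ⁅⁅pCoreOf p L, Subgroup.zpowers b⁆, Subgroup.zpowers b⁆ ≤ L ⊓ Subgroup.centralizer (L : Set G))

/-- The statement to be proved (`exists_blockData`). -/
def HasBlockData : Prop :=
  ∀ {G : Type u} [Group G] [Finite G] {p : ℕ} [Fact p.Prime] (S : Sylow p G),
    Subgroup.centralizer (pCore p G : Set G) ≤ pCore p G →
    (∃! M : Subgroup G, IsCoatom M ∧ (S : Subgroup G) ≤ M) →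
    ∀ (K : Subgroup G) [K.Normal] (F : Type) [Field F] [Fintype F] (n : ℕ), 1 ≤ n → Fintype.card F = p ^ n →
    Nonempty (G ⧸ K ≃* Matrix.ProjectiveSpecialLinearGroup (Fin 2) F) →
    (∀ T : Subgroup ↥(S : Subgroup G), T ≠ ⊥ → T.Characteristic → ¬ (T.map (S : Subgroup G).subtype).Normal) →
    BlockData p n (S : Subgroup G) (pCore p G) (pResidualOf p (⊤ : Subgroup G)) F

end CfsgLib.PushUp.RankOne
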