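import Cfsg.Agent.Lib.PushUp.RankOne.BlockTools
import Cfsg.Agent.Lib.PushUp.RankOne.BlockDataDef

/-!
Rank one pushing up: general facts on the block `O^p(G)` and the case `b = 1` for an abstract group.
-/

set_option autoImplicit false
set_option linter.unusedSectionVars false
set_option linter.style.haveILetI false

namespace CfsgLib.PushUp.RankOne

open Cfsg
open scoped commutatorElement MatrixGroups
open Matrix
open CfsgLib.ClassicalLinear (upS upS_coe upS_add)
open CfsgLib.SL2Gen (lowS lowS_coe)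
open CfsgLib.StronglyPEmbedded (normal_pResidual' pResidual_sup_sylow pResidual_le_of_sup_eq_top)

variable {G : Type*} [Group G] [Finite G] {p : ℕ} [hp : Fact p.Prime] {F : Type} [Field F]
  {V Z : Subgroup G}

/-- What the abstract group keeps of the configuration. -/
structure MidFacts (S : Sylow p G) (SV : NatSection V Z F) : Prop where
  kerρ : ∀ g, SV.ρ g = 1 ↔ g ∈ pCore p G
  upper : ∀ s ∈ (S : Subgroup G), ∃ τ, SV.ρ s = upS τ
  exists_not : ∃ z ∈ (S : Subgroup G), z ∉ pCore p G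
  cen : ∀ z ∈ V, z ∈ Z ↔ ∀ g, g * z = z * g
  V_le : V ≤ pCore p G
  commQ : ∀ a ∈ pCore p G, ∀ v ∈ V, a * v = v * a
  powV : ∀ v ∈ V, v ^ p = 1
  cover : ∀ N : Subgroup G, N.Normal → (∃ z ∈ N, z ∈ (S : Subgroup G) ∧ z ∉ pCore p G) →
    N ⊔ (S : Subgroup G) = ⊤

namespace MidFacts

variable {S : Sylow p G} {SV : NatSection V Z F} (h : MidFacts S SV)
include h

theorem Q_le : pCore p G ≤ (S : Subgroup G) := CfsgLib.Cores.pCore_le_sylow S

theorem gen {N : Subgroup G} (hN : N.Normal) (hS : (S : Subgroup G) ≤ N) : N = ⊤ := by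
  obtain ⟨z, hz, hzQ⟩ := h.exists_not
  have := h.cover N hN ⟨z, hS hz, hz, hzQ⟩
  rwa [sup_eq_left.2 hS] at this

theorem image : (pResidual p G).map SV.ρ = commutator (SL(2, F)) :=
  map_residual_eq_commutator SV.ρ SV.surjρ S (fun a ha b hb => by
    obtain ⟨s, hs⟩ := h.upper a ha
    obtain ⟨t, ht⟩ := h.upper b hb
    rw [hs, ht, upS_comm]) fun _ hN hS => h.gen hN hS

theorem image_ne : (pResidual p G).map SV.ρ ≠ ⊥ := h.image ▸ commutator_sl_ne_bot

theorem res : pResidualOf p (pResidual p G) = pResidual p G := by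
  refine le_antisymm (Subgroup.map_subtype_le _) ((Subgroup.closure_le _).2 fun y hy => ?_)
  exact ⟨⟨y, Subgroup.subset_closure hy⟩, Subgroup.subset_closure (by
    rw [Set.mem_setOf_eq, ← Subgroup.orderOf_coe]; exact hy), rfl⟩

theorem comm : ⁅pResidual p G, (S : Subgroup G)⁆ = pResidual p G := by
  haveI hLn : (pResidual p G).Normal := normal_pResidual'
  set L := pResidual p G with hL
  set M := ⁅L, (S : Subgroup G)⁆ with hM
  have hML : M ≤ L := Subgroup.commutator_le_left L _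
  have hsup : L ⊔ (S : Subgroup G) = ⊤ := pResidual_sup_sylow S
  have hMn : M.Normal := by
    refine ⟨fun n hn g => ?_⟩
    obtain ⟨l, hl, s, hs, rfl⟩ :=
      Subgroup.mem_sup_of_normal_left.1 (hsup ▸ Subgroup.mem_top g : g ∈ L ⊔ (S : Subgroup G))
    suffices M ≤ M.comap (MulAut.conj (l * s)).toMonoidHom from this hn
    rw [hM, Subgroup.commutator_le]
    intro l' hl' s' hs'
    have e : l * s * ⁅l', s'⁆ * (l * s)⁻¹ =
        ⁅l * (s * l' * s⁻¹), s * s' * s⁻¹⁆ * ⁅l, s * s' * s⁻¹⁆⁻¹ := by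
      simp [commutatorElement_def, mul_assoc]
    show l * s * ⁅l', s'⁆ * (l * s)⁻¹ ∈ ⁅L, (S : Subgroup G)⁆
    rw [e]
    exact Subgroup.mul_mem _ (Subgroup.commutator_mem_commutator
      (L.mul_mem hl (hLn.conj_mem l' hl' s)) (Subgroup.mul_mem _ (Subgroup.mul_mem _ hs hs')
        (Subgroup.inv_mem _ hs))) (Subgroup.inv_mem _ (Subgroup.commutator_mem_commutator hl
        (Subgroup.mul_mem _ (Subgroup.mul_mem _ hs hs') (Subgroup.inv_mem _ hs))))
  have hMS : M ⊔ (S : Subgroup G) = ⊤ := by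
    refine h.gen ⟨fun x hx g => ?_⟩ le_sup_right
    obtain ⟨l, hl, s, hs, rfl⟩ :=
      Subgroup.mem_sup_of_normal_left.1 (hsup ▸ Subgroup.mem_top g : g ∈ L ⊔ (S : Subgroup G))
    obtain ⟨m, hm, s', hs', rfl⟩ := Subgroup.mem_sup_of_normal_left.1 hx
    have hs'' : s * s' * s⁻¹ ∈ (S : Subgroup G) :=
      Subgroup.mul_mem _ (Subgroup.mul_mem _ hs hs') (Subgroup.inv_mem _ hs)
    have e : l * s * (m * s') * (l * s)⁻¹ =
        (l * s * m * (l * s)⁻¹ * ⁅l, s * s' * s⁻¹⁆) * (s * s' * s⁻¹) := by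
      simp [commutatorElement_def, mul_assoc]
    rw [e]
    exact Subgroup.mul_mem _ (Subgroup.mem_sup_left (M.mul_mem (hMn.conj_mem m hm _)
      (Subgroup.commutator_mem_commutator hl hs''))) (Subgroup.mem_sup_right hs'')
  exact le_antisymm hML (pResidual_le_of_sup_eq_top S.2 hMS)

theorem core : pCoreOf p (pResidual p G) = pResidual p G ⊓ pCore p G := by
  haveI : (pResidual p G).Normal := normal_pResidual'
  rw [inf_comm]
  exact CfsgLib.Cores.map_subtype_pCore_eq (Subgroup.Normal.isSubnormal inferInstance)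

theorem quot : Nonempty (↥(pResidual p G) ⧸ pCore p ↥(pResidual p G) ≃* ↥(commutator (SL(2, F)))) := by
  set L := pResidual p G with hL
  have hk : (SV.ρ.comp L.subtype).ker = pCore p ↥L := by
    refine Subgroup.map_injective L.subtype_injective ?_
    show _ = pCoreOf p L
    rw [h.core]
    ext g
    constructor
    · rintro ⟨a, ha, rfl⟩
      exact ⟨a.2, (h.kerρ a).1 ha⟩
    · rintro ⟨hgL, hgQ⟩
      exact ⟨⟨g, hgL⟩, (h.kerρ g).2 hgQ, rfl⟩
  refine ⟨(QuotientGroup.quotientMulEquivOfEq hk.symm).trans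
    ((QuotientGroup.quotientKerEquivRange _).trans (MulEquiv.subgroupCongr ?_))⟩
  rw [MonoidHom.range_comp, Subgroup.range_subtype]
  exact h.image

theorem cen_comm {z : G} (hz : z ∈ Z) (g : G) : g * z = z * g := (h.cen z (SV.le hz)).1 hz g

theorem comm_L_mem (l : G) (hl : l ∈ pResidual p G) {a : G} (ha : a ∈ pCore p G) :
    ⁅l, a⁆ ∈ ⁅pCore p G, pResidual p G⁆ := by
  rw [← commutatorElement_inv]
  exact Subgroup.inv_mem _ (Subgroup.commutator_mem_commutator ha hl)

theorem cover_V : V ≤ Z ⊔ (⁅pCore p G, pResidual p G⁆ ⊓ V) := by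
  haveI : (pResidual p G).Normal := normal_pResidual'
  exact SV.cover_of_comm h.image_ne inferInstance fun l hl a ha => h.comm_L_mem l hl (h.V_le ha)

theorem comm_V_top : ⁅V, (⊤ : Subgroup G)⁆ ≤ ⁅pCore p G, pResidual p G⁆ := by
  haveI : (pResidual p G).Normal := normal_pResidual'
  haveI := SV.normal'
  set A := ⁅pCore p G, pResidual p G⁆
  rw [Subgroup.commutator_le]
  intro v hv g _
  obtain ⟨z, hz, a, ha, rfl⟩ := Subgroup.mem_sup_of_normal_left.1 (h.cover_V hv)
  have hA : A.Normal := inferInstance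
  rw [comm_mul_left, sub_iff.2 (h.cen_comm hz g).symm, mul_one]
  refine hA.conj_mem _ ?_ z
  simpa [commutatorElement_def, mul_assoc] using A.mul_mem ha.1 (hA.conj_mem _ (A.inv_mem ha.1) g)

/-- Elements centralised by the residual at the bottom. -/
theorem inf_centralizer {x : G} (hx : x ∈ V) :
    x ∈ Subgroup.centralizer (pResidual p G : Set G) ↔ x ∈ Z := by
  refine ⟨fun hc => ?_, fun hz l _ => h.cen_comm hz l⟩
  haveI : (pResidual p G).Normal := normal_pResidual'
  haveI := SV.normal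
  refine SV.le_of_centralized h.image_ne
    (Subgroup.normal_inf_normal V (Subgroup.centralizer (pResidual p G : Set G))) inf_le_left
    (fun l hl a ha => ?_) ⟨hx, hc⟩
  rw [sub_iff.2 (ha.2 l hl)]
  exact Z.one_mem

theorem pgroup_Q : IsPGroup p ↥(pCore p G) := CfsgLib.Cores.isPGroup_pCore p G

/-- The part of the residual inside the core. -/
theorem inter_eq {U : Subgroup G} (hU : ∀ a ∈ U, ∀ b ∈ U, a * b = b * a)
    (hdec : ∀ s ∈ (S : Subgroup G), ∃ u ∈ U, ∃ c ∈ pCore p G, s = u * c)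
    (hUQ : ∀ u ∈ U, ∀ c ∈ pCore p G, ⁅u, c⁆ ∈ ⁅pCore p G, pResidual p G⁆) :
    pResidual p G ⊓ pCore p G = ⁅pCore p G, pResidual p G⁆ := by
  haveI : (pResidual p G).Normal := normal_pResidual'
  refine le_antisymm ?_ (le_inf (Subgroup.commutator_le_right _ _) (Subgroup.commutator_le_left _ _))
  exact residual_inf_le S h.Q_le (fun l hl a ha => h.comm_L_mem l hl ha) hU hdec hUQ
    fun a ha l hl => h.comm_L_mem l hl ha.2

/-- The block in the case `b = 1`. -/
theorem blockData_one {n : ℕ} {U : Subgroup G} (hU : ∀ a ∈ U, ∀ b ∈ U, a * b = b * a)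
    (hdec : ∀ s ∈ (S : Subgroup G), ∃ u ∈ U, ∃ c ∈ pCore p G, s = u * c)
    (hUS : U ≤ (S : Subgroup G)) (hUp : ∀ u ∈ U, u ^ p = 1)
    (hUQ : ∀ u ∈ U, ∀ c ∈ pCore p G, ⁅u, c⁆ ∈ ⁅V, (⊤ : Subgroup G)⁆) :
    BlockData p n (S : Subgroup G) (pCore p G) (pResidual p G) F := by
  haveI hLn : (pResidual p G).Normal := normal_pResidual'
  haveI := SV.normal
  have hA := h.inter_eq hU hdec fun u hu c hc => h.comm_V_top (hUQ u hu c hc)
  set L := pResidual p G with hL
  set A := ⁅pCore p G, L⁆ with hAdef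
  obtain ⟨u, hu, huQ⟩ : ∃ u ∈ U, u ∉ pCore p G := by
    obtain ⟨z, hz, hzQ⟩ := h.exists_not
    obtain ⟨u, hu, c, hc, rfl⟩ := hdec z hz
    exact ⟨u, hu, fun hc' => hzQ (Subgroup.mul_mem _ hc' hc)⟩
  have hAV : A ≤ V := by
    set N := centMod (pCore p G) V with hN
    have hNS := h.cover N (centMod_normal _ V) ⟨u, fun a ha =>
      Subgroup.commutator_le_left V ⊤ (hUQ u hu a ha), hUS hu, huQ⟩
    haveI : N.Normal := centMod_normal _ V
    have hLN : L ≤ N := pResidual_le_of_sup_eq_top S.2 hNS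
    rw [hAdef, Subgroup.commutator_le]
    intro a ha l hl
    rw [← commutatorElement_inv]
    exact V.inv_mem (hLN hl a ha)
  have hsup : V ≤ Z ⊔ A := h.cover_V.trans (sup_le_sup_left inf_le_left Z)
  have hcore : pCoreOf p L = A := h.core.trans hA
  have hW : omegaOneCenter p A = A := by
    refine le_antisymm ((Subgroup.closure_le _).2 fun x hx => hx.1.1) fun x hx => ?_
    exact Subgroup.subset_closure
      ⟨⟨hx, fun a ha => (h.commQ a (h.V_le (hAV ha)) x (hAV hx))⟩, h.powV x (hAV hx)⟩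
  refine ⟨h.res, h.comm, h.core, ?_, h.quot, ?_, Or.inl ⟨?_, u, hUS hu, huQ, hUp u hu, ?_⟩⟩
  · rw [hcore]; exact commutator_residual_idem h.pgroup_Q
  · rw [hcore, hW]
    exact SV.actsAs h.image hAV hsup inf_le_left fun a ha =>
      ⟨fun hm => (h.inf_centralizer (hAV ha)).1 hm.2,
        fun hz => ⟨ha, (h.inf_centralizer (hAV ha)).2 hz⟩⟩
  · rw [hcore, hW]
  · intro a ha
    rw [hcore]
    exact h.comm_V_top (hUQ u hu a ha)

end MidFacts

end CfsgLib.PushUp.RankOne
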