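import Cfsg.Prelude.Def_BaumannBlocks
import Cfsg.Agent.Lib.PushUp.RankOne.Section
import Cfsg.Agent.Lib.PushUp.RankOne.TwoBasic
import Cfsg.Agent.Lib.PushUp.RankOne.Kernel
import Cfsg.Agent.Lib.StronglyPEmbedded.PMinimal
import Cfsg.Agent.Lib.Cores.PCore

/-!
Rank one pushing up: tools for the block `O^p(G)`: stabilised chains, a transfer criterion, the image in
`SL₂`, and natural sections restricted to a normal subgroup.
-/

set_option autoImplicit false
set_option linter.unusedSectionVars false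
set_option linter.style.haveILetI false

namespace CfsgLib.PushUp.RankOne

open Cfsg
open scoped commutatorElement MatrixGroups
open Matrix
open CfsgLib.ClassicalLinear (upS upS_coe upS_add)
open CfsgLib.SL2Gen (lowS lowS_coe)

variable {G : Type*} [Group G] [Finite G] {p : ℕ} [hp : Fact p.Prime]

omit [Finite G] hp in
theorem pResidualOf_top : pResidualOf p (⊤ : Subgroup G) = pResidual p G := by
  rw [pResidualOf, pResidual, pResidual, MonoidHom.map_closure]
  congr 1
  ext g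
  constructor
  · rintro ⟨a, ha, rfl⟩
    show (orderOf (a : G)).Coprime p
    rw [Subgroup.orderOf_coe]
    exact ha
  · intro hg
    exact ⟨⟨g, trivial⟩, by rwa [Set.mem_setOf_eq, ← Subgroup.orderOf_coe], rfl⟩

/-- The elements acting trivially on `Q` modulo `B`. -/
def centMod (Q B : Subgroup G) [hB : B.Normal] : Subgroup G where
  carrier := {g | ∀ a ∈ Q, ⁅g, a⁆ ∈ B}
  one_mem' a _ := by simp
  mul_mem' {g h} hg hh a ha := by
    rw [comm_mul_left]
    exact B.mul_mem (hB.conj_mem _ (hh a ha) g) (hg a ha)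
  inv_mem' {g} hg a ha := by
    have e : ⁅g⁻¹, a⁆ = g⁻¹ * ⁅g, a⁆⁻¹ * g⁻¹⁻¹ := by simp [commutatorElement_def, mul_assoc]
    rw [e]
    exact hB.conj_mem _ (B.inv_mem (hg a ha)) g⁻¹

omit [Finite G] in
theorem centMod_normal (Q B : Subgroup G) [B.Normal] [hQ : Q.Normal] : (centMod Q B).Normal :=
  ⟨fun n hn g a ha => by
    have h := (inferInstance : B.Normal).conj_mem _ (hn _ (hQ.conj_mem a ha g⁻¹)) g
    simpa [commutatorElement_def, mul_assoc] using h⟩

/-- Elements of order prime to `p` stabilising a chain act trivially. -/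
theorem mem_centMod_of_stab {Q A B : Subgroup G} [B.Normal] (hA : IsPGroup p A) {g : G}
    (hg : g ∈ pResidual p G) (h1 : ∀ k ∈ pResidual p G, ∀ a ∈ Q, ⁅k, a⁆ ∈ A)
    (h2 : ∀ k ∈ pResidual p G, ∀ w ∈ A, ⁅k, w⁆ ∈ B) : g ∈ centMod Q B := by
  refine (Subgroup.closure_le _).2 ?_ hg
  intro k (hk : (orderOf k).Coprime p) a ha
  have hkL : k ∈ pResidual p G := Subgroup.subset_closure hk
  have hw := h1 k hkL a ha
  obtain ⟨m, hm⟩ := hA ⟨_, hw⟩
  have hm' : ⁅k, a⁆ ^ p ^ m = 1 := by simpa using congrArg Subtype.val hm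
  refine (QuotientGroup.eq_one_iff _).1 ?_
  refine Sys.eq_one_of_fixed (p := p) (k := (k : G ⧸ B)) (a := (a : G ⧸ B)) (m := m)
    (Nat.Coprime.coprime_dvd_left (orderOf_map_dvd (QuotientGroup.mk' B) k) hk) ?_ ?_ ?_
  · rw [← QuotientGroup.mk_inv, ← QuotientGroup.mk_mul, ← QuotientGroup.mk_mul, ← QuotientGroup.mk_mul]
    congr 1
    simp [commutatorElement_def]
  · refine commutatorElement_eq_one_iff_mul_comm.1 ?_
    have h3 := (QuotientGroup.eq_one_iff (N := B) _).2 (h2 k hkL _ hw)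
    rw [← h3]; rfl
  · rw [← QuotientGroup.mk_pow, hm']; rfl

/-- `[Q, L] = [Q, L, L]`. -/
theorem commutator_residual_idem {Q : Subgroup G} [Q.Normal] (hQ : IsPGroup p Q) :
    ⁅⁅Q, pResidual p G⁆, pResidual p G⁆ = ⁅Q, pResidual p G⁆ := by
  haveI : (pResidual p G).Normal := CfsgLib.StronglyPEmbedded.normal_pResidual'
  set L := pResidual p G with hL
  set A := ⁅Q, L⁆ with hA
  have hAQ : A ≤ Q := Subgroup.commutator_le_left Q L
  refine le_antisymm (Subgroup.commutator_le_left A L) (Subgroup.commutator_le.2 fun a ha l hl => ?_)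
  rw [← commutatorElement_inv]
  refine Subgroup.inv_mem _ (mem_centMod_of_stab (hQ.to_le hAQ) hl (fun k hk b hb => ?_)
    (fun k hk w hw => ?_) a ha)
  · rw [← commutatorElement_inv]
    exact A.inv_mem (Subgroup.commutator_mem_commutator hb hk)
  · rw [← commutatorElement_inv]
    exact Subgroup.inv_mem _ (Subgroup.commutator_mem_commutator hw hk)

omit [Finite G] hp in
theorem mem_of_commutes_mod {A : Subgroup G} [A.Normal] {a b : G} (h : ⁅a, b⁆ ∈ A) :
    (a : G ⧸ A) * b = b * a := by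
  refine commutatorElement_eq_one_iff_mul_comm.1 ?_
  rw [← (QuotientGroup.eq_one_iff (N := A) _).2 h]; rfl

/-- Transfer: a central `p`-section of `O^p(G)` under an abelian Sylow subgroup is trivial. -/
theorem residual_inf_le (S : Sylow p G) {Q A U : Subgroup G} [A.Normal] (hQS : Q ≤ (S : Subgroup G))
    (hLQ : ∀ l ∈ pResidual p G, ∀ a ∈ Q, ⁅l, a⁆ ∈ A) (hU : ∀ a ∈ U, ∀ b ∈ U, a * b = b * a)
    (hdec : ∀ s ∈ (S : Subgroup G), ∃ u ∈ U, ∃ c ∈ Q, s = u * c)
    (hUQ : ∀ u ∈ U, ∀ c ∈ Q, ⁅u, c⁆ ∈ A) (hcen : ∀ a ∈ pResidual p G ⊓ Q, ∀ l ∈ pResidual p G,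
      ⁅l, a⁆ ∈ A) : pResidual p G ⊓ Q ≤ A := by
  haveI hLn : (pResidual p G).Normal := CfsgLib.StronglyPEmbedded.normal_pResidual'
  set L := pResidual p G with hL
  set π := QuotientGroup.mk' A with hπ
  set f := π.subgroupMap L with hf
  have hfs : Function.Surjective f := π.subgroupMap_surjective L
  set K := ((S : Subgroup G).subgroupOf L).map f with hK
  have hKp : IsPGroup p K := (S.2.comap_subtype).map _
  have hKi : ¬ p ∣ K.index := fun hd => by
    obtain ⟨R, hR⟩ := CfsgLib.StronglyPEmbedded.exists_sylow_subgroupOf_eq S (A := L)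
      (Subgroup.Normal.isSubnormal inferInstance)
    refine R.not_dvd_index (hd.trans ?_)
    rw [hR]
    exact Subgroup.index_map_dvd _ hfs
  have hab : ∀ x ∈ K, ∀ y ∈ K, x * y = y * x := by
    rintro _ ⟨s, hs, rfl⟩ _ ⟨t, ht, rfl⟩
    refine Subtype.ext ?_
    show ((s : G) : G ⧸ A) * ((t : G) : G ⧸ A) = ((t : G) : G ⧸ A) * ((s : G) : G ⧸ A)
    obtain ⟨u, hu, a, ha, es⟩ := hdec _ hs
    have es' : (s : G) = u * a := es
    obtain ⟨v, hv, b, hb, et⟩ := hdec _ ht
    have et' : (t : G) = v * b := et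
    have h1 : Commute (u : G ⧸ A) v := congrArg (QuotientGroup.mk' A) (hU u hu v hv)
    have h2 : Commute (u : G ⧸ A) b := mem_of_commutes_mod (hUQ u hu b hb)
    have h3 : Commute (v : G ⧸ A) a := mem_of_commutes_mod (hUQ v hv a ha)
    have h4 : Commute ((s : G) : G ⧸ A) b := mem_of_commutes_mod (hLQ _ s.2 b hb)
    have h5 : Commute (a : G ⧸ A) b := by
      have e : (a : G ⧸ A) = (u : G ⧸ A)⁻¹ * ((s : G) : G ⧸ A) := by
        rw [es', QuotientGroup.mk_mul, inv_mul_cancel_left]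
      rw [e]
      exact h2.inv_left.mul_left h4
    rw [es', et', QuotientGroup.mk_mul, QuotientGroup.mk_mul]
    exact (h1.mul_right h2).mul_left (h3.symm.mul_right h5)
  letI : CommGroup ↥K :=
    { (inferInstance : Group ↥K) with mul_comm := fun x y => Subtype.ext (hab x x.2 y y.2) }
  set v := MonoidHom.transfer (MonoidHom.id ↥K)
  have htriv : ∀ l : ↥L, v (f l) = 1 := by
    intro l
    have hle : L ≤ ((v.comp f).ker).map L.subtype := by
      refine (Subgroup.closure_le _).2 fun k (hk : (orderOf k).Coprime p) => ?_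
      refine ⟨⟨k, Subgroup.subset_closure hk⟩, ?_, rfl⟩
      obtain ⟨j, hj⟩ := hKp (v (f ⟨k, Subgroup.subset_closure hk⟩))
      refine MonoidHom.mem_ker.2 (orderOf_eq_one_iff.1 ?_)
      refine Nat.Coprime.eq_one_of_dvd ?_ (orderOf_dvd_of_pow_eq_one hj)
      refine Nat.Coprime.pow_right j (Nat.Coprime.coprime_dvd_left ?_ hk)
      exact (orderOf_map_dvd (v.comp f) _).trans (by rw [← Subgroup.orderOf_coe])
    obtain ⟨l', hl', e⟩ := hle l.2
    rw [show l = l' from Subtype.ext e.symm]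
    exact hl'
  intro a ha
  set z := f ⟨a, ha.1⟩ with hz
  have key : ∀ (k : ℕ) (g₀ : ↥(L.map π)), g₀⁻¹ * z ^ k * g₀ ∈ K → g₀⁻¹ * z ^ k * g₀ = z ^ k := by
    intro k g₀ _
    obtain ⟨l, rfl⟩ := hfs g₀
    have hc : Commute (f l) z := by
      refine Subtype.ext ?_
      show ((l : G) : G ⧸ A) * (a : G ⧸ A) = (a : G ⧸ A) * ((l : G) : G ⧸ A)
      exact mem_of_commutes_mod (hcen a ha l l.2)
    rw [mul_assoc, ← (hc.pow_right k).eq, inv_mul_cancel_left]
  have h1 := MonoidHom.transfer_eq_pow (MonoidHom.id ↥K) z key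
  rw [show (MonoidHom.transfer (MonoidHom.id ↥K)) z = 1 from htriv _] at h1
  have h2 : z ^ K.index = 1 := (congrArg Subtype.val h1).symm
  obtain ⟨j, hj⟩ := hKp ⟨z, ⟨⟨a, ha.1⟩, hQS ha.2, rfl⟩⟩
  have hj' : z ^ p ^ j = 1 := congrArg Subtype.val hj
  have h3 : z = 1 := orderOf_eq_one_iff.1 (Nat.eq_one_of_dvd_coprimes
    (((hp.out.coprime_iff_not_dvd).2 hKi).pow_left j) (orderOf_dvd_of_pow_eq_one hj')
    (orderOf_dvd_of_pow_eq_one h2))
  exact (QuotientGroup.eq_one_iff a).1 (congrArg Subtype.val h3)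

/-- The image of `O^p(G)`. -/
theorem map_residual_eq_commutator {H : Type*} [Group H] (ρ : G →* H) (hρ : Function.Surjective ρ)
    (S : Sylow p G) (hab : ∀ a ∈ (S : Subgroup G), ∀ b ∈ (S : Subgroup G), ρ a * ρ b = ρ b * ρ a)
    (hgen : ∀ N : Subgroup G, N.Normal → (S : Subgroup G) ≤ N → N = ⊤) :
    (pResidual p G).map ρ = commutator H := by
  haveI hLn : (pResidual p G).Normal := CfsgLib.StronglyPEmbedded.normal_pResidual'
  set L := pResidual p G with hL
  have hsup : L ⊔ (S : Subgroup G) = ⊤ := CfsgLib.StronglyPEmbedded.pResidual_sup_sylow S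
  refine le_antisymm ?_ ?_
  · rw [Subgroup.map_le_iff_le_comap]
    set N := (commutator H).comap ρ with hN
    have hNS : N ⊔ (S : Subgroup G) = ⊤ := by
      refine hgen _ ⟨fun x hx g => ?_⟩ le_sup_right
      have h1 : ⁅g, x⁆ ∈ N := by
        show ρ ⁅g, x⁆ ∈ commutator H
        rw [map_commutatorElement]
        exact Subgroup.commutator_mem_commutator (Subgroup.mem_top _) (Subgroup.mem_top _)
      have := Subgroup.mul_mem _ (Subgroup.mem_sup_left h1 : ⁅g, x⁆ ∈ N ⊔ (S : Subgroup G)) hx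
      simpa [commutatorElement_def] using this
    exact CfsgLib.StronglyPEmbedded.pResidual_le_of_sup_eq_top S.2 hNS
  · haveI hMn : (L.map ρ).Normal := hLn.map ρ hρ
    rw [commutator_def, Subgroup.commutator_le]
    intro x _ y _
    obtain ⟨g, rfl⟩ := hρ x
    obtain ⟨g', rfl⟩ := hρ y
    obtain ⟨l, hl, s, hs, rfl⟩ :=
      Subgroup.mem_sup_of_normal_left.1 (hsup ▸ Subgroup.mem_top g : g ∈ L ⊔ (S : Subgroup G))
    obtain ⟨l', hl', s', hs', rfl⟩ :=
      Subgroup.mem_sup_of_normal_left.1 (hsup ▸ Subgroup.mem_top g' : g' ∈ L ⊔ (S : Subgroup G))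
    refine (QuotientGroup.eq_one_iff (N := L.map ρ) _).1 ?_
    have el : ∀ a ∈ L, ((ρ a : H) : H ⧸ L.map ρ) = 1 := fun a ha =>
      (QuotientGroup.eq_one_iff _).2 ⟨a, ha, rfl⟩
    rw [← QuotientGroup.mk'_apply, map_commutatorElement, QuotientGroup.mk'_apply,
      QuotientGroup.mk'_apply, map_mul, map_mul, QuotientGroup.mk_mul, QuotientGroup.mk_mul, el l hl,
      el l' hl', one_mul, one_mul, commutatorElement_eq_one_iff_mul_comm, ← QuotientGroup.mk_mul,
      hab s hs s' hs', QuotientGroup.mk_mul]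

/-! ### The special linear group -/

variable {F : Type} [Field F]

local notation "M₂" => Matrix (Fin 2) (Fin 2) F

theorem upS_comm (s t : F) : upS s * upS t = upS t * upS s := by
  rw [← upS_add, ← upS_add, add_comm]

/-- Minus the identity. -/
def negSB (F : Type) [Field F] : SL(2, F) := ⟨!![-1, 0; 0, -1], by simp [Matrix.det_fin_two]⟩

theorem negS_coe : ((negSB F : SL(2, F)) : M₂) = !![-1, 0; 0, -1] := rfl

theorem negSB_mulVec (v : Fin 2 → F) : ((negSB F : SL(2, F)) : M₂) *ᵥ v = -v := by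
  rw [negS_coe]; funext i; fin_cases i <;> simp [Matrix.mulVec, dotProduct, Fin.sum_univ_two]

theorem negSB_comm (g : SL(2, F)) : negSB F * g = g * negSB F := by
  apply Subtype.ext
  rw [Matrix.SpecialLinearGroup.coe_mul, Matrix.SpecialLinearGroup.coe_mul, negS_coe]
  ext i j; fin_cases i <;> fin_cases j <;> simp [Matrix.mul_apply]

theorem negS_mul_self : negSB F * negSB F = 1 := by
  apply Subtype.ext
  rw [Matrix.SpecialLinearGroup.coe_mul, negS_coe, Matrix.SpecialLinearGroup.coe_one]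
  ext i j; fin_cases i <;> fin_cases j <;> simp [Matrix.mul_apply]

theorem negS_ne_one (h2 : (2 : F) ≠ 0) : negSB F ≠ 1 := fun e => by
  have := congrArg (fun M : SL(2, F) => (M : M₂) 0 0) e
  rw [negS_coe, Matrix.SpecialLinearGroup.coe_one] at this
  simp at this
  exact h2 (by linear_combination -this)

theorem eq_negS_of_sq (h2 : (2 : F) ≠ 0) {g : SL(2, F)} (hg : g * g = 1) (hne : g ≠ 1) : g = negSB F := by
  have hinv : g⁻¹ = g := inv_eq_of_mul_eq_one_right hg
  have e := congrArg (fun M : SL(2, F) => (M : M₂)) hinv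
  simp only [Matrix.SpecialLinearGroup.coe_inv, Matrix.adjugate_fin_two] at e
  have h01 : (g : M₂) 0 1 = 0 := by
    have := congrFun (congrFun e 0) 1
    simp at this
    exact (mul_eq_zero.1 (show (2 : F) * (g : M₂) 0 1 = 0 by linear_combination -this)).resolve_left h2
  have h10 : (g : M₂) 1 0 = 0 := by
    have := congrFun (congrFun e 1) 0
    simp at this
    exact (mul_eq_zero.1 (show (2 : F) * (g : M₂) 1 0 = 0 by linear_combination -this)).resolve_left h2
  have h00 : (g : M₂) 1 1 = (g : M₂) 0 0 := by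
    have := congrFun (congrFun e 0) 0
    simp at this
    exact this
  have hdet := CfsgLib.SL2.det_eq g
  rw [h01, zero_mul, sub_zero, h00] at hdet
  rcases mul_self_eq_one_iff.1 hdet with h | h
  · exact absurd (Subtype.ext (by
      rw [Matrix.SpecialLinearGroup.coe_one]
      ext i j; fin_cases i <;> fin_cases j <;> simp [h01, h10, h00, h])) hne
  · apply Subtype.ext
    rw [negS_coe]
    ext i j; fin_cases i <;> fin_cases j <;> simp [h01, h10, h00, h]

theorem commutator_sl_ne_bot : commutator (SL(2, F)) ≠ ⊥ := fun e => by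
  have h : ⁅upS (1 : F), lowS 1⁆ ∈ commutator (SL(2, F)) :=
    Subgroup.commutator_mem_commutator (Subgroup.mem_top _) (Subgroup.mem_top _)
  rw [e, Subgroup.mem_bot, commutatorElement_eq_one_iff_mul_comm] at h
  have := congrArg (fun M : SL(2, F) => (M : M₂) 0 0) h
  simp only [Matrix.SpecialLinearGroup.coe_mul, upS_coe, lowS_coe] at this
  simp [Matrix.mul_apply] at this

theorem negS_mem_commutator (h3 : (3 : F) = 0) : negSB F ∈ commutator (SL(2, F)) := by
  let a : SL(2, F) := ⟨!![0, 1; -1, 0], by simp [Matrix.det_fin_two]⟩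
  let b : SL(2, F) := ⟨!![1, 1; 1, -1], by
    rw [Matrix.det_fin_two]; simp; linear_combination (-1 : F) * h3⟩
  have ha : (a : M₂) = !![0, 1; -1, 0] := rfl
  have hb : (b : M₂) = !![1, 1; 1, -1] := rfl
  have h : ⁅a, b⁆ ∈ commutator (SL(2, F)) :=
    Subgroup.commutator_mem_commutator (Subgroup.mem_top _) (Subgroup.mem_top _)
  rwa [show ⁅a, b⁆ = negSB F from by
    rw [commutatorElement_def, mul_inv_eq_iff_eq_mul, mul_inv_eq_iff_eq_mul]
    apply Subtype.ext
    simp only [Matrix.SpecialLinearGroup.coe_mul, negS_coe, ha, hb]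
    ext i j
    fin_cases i <;> fin_cases j <;> simp [Matrix.mul_apply]] at h

/-! ### Natural sections -/

namespace NatSection

variable {V Z : Subgroup G} (SV : NatSection V Z F)
include SV

theorem comm_mem (g : G) {a : G} (ha : a ∈ V) : ⁅g, a⁆ ∈ V :=
  V.mul_mem (SV.normal.conj_mem a ha g) (V.inv_mem ha)

theorem psi_comm (g : G) (a : ↥V) :
    SV.ψ ⟨⁅g, (a : G)⁆, SV.comm_mem g a.2⟩ =
      ((SV.ρ g : SL(2, F)) : M₂) *ᵥ SV.ψ a - SV.ψ a := by
  rw [← SV.equiv g a (⟨_, SV.comm_mem g a.2⟩ * a) (by simp [commutatorElement_def]), SV.map_mul]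
  simp

theorem psi_congr {a b : G} (e : a = b) (ha : a ∈ V) (hb : b ∈ V) :
    SV.ψ ⟨a, ha⟩ = SV.ψ ⟨b, hb⟩ := by subst e; rfl

/-- A normal subgroup with nontrivial image moves the section. -/
theorem not_centralized {L : Subgroup G} (hR : L.map SV.ρ ≠ ⊥) : ¬ ∀ l ∈ L, ∀ a ∈ V, ⁅l, a⁆ ∈ Z := by
  intro h
  refine hR ((Subgroup.map_eq_bot_iff L).2 fun l hl => ?_)
  exact MonoidHom.mem_ker.2 ((SV.rho_eq_one_iff l).2 (h l hl))

/-- Fixed points lie at the bottom. -/
theorem le_of_centralized {L C : Subgroup G} (hR : L.map SV.ρ ≠ ⊥) (hC : C.Normal) (hCV : C ≤ V)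
    (h : ∀ l ∈ L, ∀ a ∈ C, ⁅l, a⁆ ∈ Z) : C ≤ Z := by
  refine (SV.dichotomy hC hCV).resolve_right fun hle => SV.not_centralized hR fun l hl a ha => ?_
  haveI := SV.normal'
  obtain ⟨z, hz, c, hc, rfl⟩ := Subgroup.mem_sup_of_normal_left.1 (hle ha)
  rw [comm_mul_right]
  exact Z.mul_mem (Z.mul_mem (SV.normal'.conj_mem z hz l) (Z.inv_mem hz))
    (SV.normal'.conj_mem _ (h l hl c hc) z)

/-- A normal subgroup containing all commutators with `L` covers the section. -/
theorem cover_of_comm {L A : Subgroup G} (hR : L.map SV.ρ ≠ ⊥) (hA : A.Normal)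
    (h : ∀ l ∈ L, ∀ a ∈ V, ⁅l, a⁆ ∈ A) : V ≤ Z ⊔ (A ⊓ V) := by
  haveI := SV.normal
  haveI := hA
  refine (SV.dichotomy (Subgroup.normal_inf_normal A V) inf_le_right).resolve_left fun hle =>
    SV.not_centralized hR fun l hl a ha => hle ⟨h l hl a ha, SV.comm_mem l ha⟩

/-- The restriction to a normal subgroup. -/
theorem actsAs {L A U₀ : Subgroup G} {R : Subgroup (SL(2, F))} (hR : L.map SV.ρ = R) [hA : A.Normal]
    (hAV : A ≤ V) (hsup : V ≤ Z ⊔ A) (hU : U₀ ≤ A) (hU₀ : ∀ a ∈ A, (a ∈ U₀ ↔ a ∈ Z)) :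
    ActsAsSL2OnSection F R L A U₀ := by
  refine ⟨fun g _ => by rw [Subgroup.normalizer_eq_top]; trivial, hU, SV.ρ.comp L.subtype,
    { toFun := fun a => Multiplicative.ofAdd (SV.ψ ⟨a, hAV a.2⟩)
      map_one' := congrArg Multiplicative.ofAdd SV.map_one
      map_mul' := fun a b => congrArg Multiplicative.ofAdd (SV.map_mul ⟨a, hAV a.2⟩ ⟨b, hAV b.2⟩) },
    ?_, fun u => ?_, fun a => ?_, fun g a => ?_⟩
  · rw [MonoidHom.range_comp, Subgroup.range_subtype]; exact hR
  · obtain ⟨w, hw⟩ := SV.surjψ u.toAdd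
    haveI := SV.normal'
    obtain ⟨z, hz, a, ha, e⟩ := Subgroup.mem_sup_of_normal_left.1 (hsup w.2)
    refine ⟨⟨a, ha⟩, congrArg Multiplicative.ofAdd (Eq.trans ?_ hw)⟩
    rw [show w = ⟨z, SV.le hz⟩ * ⟨a, hAV ha⟩ from Subtype.ext e.symm, SV.map_mul,
      (SV.ker ⟨z, SV.le hz⟩).2 hz, zero_add]
  · rw [hU₀ a a.2, ← SV.ker ⟨a, hAV a.2⟩]
    exact ⟨fun h => Multiplicative.ofAdd.injective h, fun h => congrArg Multiplicative.ofAdd h⟩
  · exact ⟨⟨_, hA.conj_mem a a.2 g⟩, rfl,
      SV.equiv g ⟨a, hAV a.2⟩ ⟨_, hAV (hA.conj_mem a a.2 g)⟩ rfl⟩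

end NatSection

end CfsgLib.PushUp.RankOne
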