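import Cfsg.Agent.Lib.PushUp.RankOne.BlockMid
import Cfsg.Agent.Lib.PGroups.Frattini

/-!
Rank one pushing up: the exceptional block of the case `b = 2`, for an abstract group.
-/

set_option autoImplicit false
set_option linter.unusedSectionVars false
set_option linter.style.haveILetI false

namespace CfsgLib.PushUp.RankOne

open Cfsg
open scoped commutatorElement MatrixGroups
open Matrix
open CfsgLib.ClassicalLinear (upS upS_coe upS_add)
open CfsgLib.SL2Gen (lowS lowS_coe)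
open CfsgLib.StronglyPEmbedded (normal_pResidual' pResidual_le_of_sup_eq_top)

variable {G : Type*} [Group G] [Finite G] {p : ℕ} [hp : Fact p.Prime] {F : Type} [Field F]
  {V Z W Y : Subgroup G}

/-- What the abstract group keeps of the configuration with `b = 2`. -/
structure MidTwo (n : ℕ) (S : Sylow p G) (U : Subgroup G) (SV : NatSection V Z F)
    (SM : NatSection W Y F) : Prop where
  mid : MidFacts S SV
  three : p = 3
  char : (3 : F) = 0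
  one_lt : 1 < p ^ n
  cardF : Nat.card F = p ^ n
  V_le : V ≤ W
  W_le : W ≤ pCore p G
  memY : ∀ f ∈ W, f ∈ Y ↔ ∀ g : G, ⁅g, f⁆ ∈ V
  powW : ∀ w ∈ W, w ^ p = 1
  commW : ∀ a ∈ W, ∀ b ∈ W, ⁅a, b⁆ ∈ V
  commWQ : ∀ w ∈ W, ∀ d ∈ pCore p G, ⁅w, d⁆ ∈ Z
  kerM : ∀ g ∈ pCore p G, SM.ρ g = 1
  form : ∀ a a' b b' : ↥W, (a : G) ∈ ⁅W, (⊤ : Subgroup G)⁆ → (a' : G) ∈ ⁅W, (⊤ : Subgroup G)⁆ →
    SM.ψ a = SM.ψ a' → SM.ψ b = SM.ψ b' → ⁅(a : G), (b : G)⁆ = ⁅(a' : G), (b' : G)⁆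
  size : ∃ Z₁ : Subgroup G, Nat.card Z₁ = p ^ n ∧
    ∀ r ∈ Z₁, ∃ v ∈ W, ∃ c ∈ W, r = ⁅v, c⁆ ∧ ∀ f ∈ Y, ⁅f, c⁆ = 1
  U_comm : ∀ a ∈ U, ∀ b ∈ U, a * b = b * a
  dec : ∀ s ∈ (S : Subgroup G), ∃ u ∈ U, ∃ c ∈ pCore p G, s = u * c
  U_le : U ≤ (S : Subgroup G)
  UQ : ∀ u ∈ U, ∀ d ∈ pCore p G, ∃ w ∈ W, ∃ r ∈ ⁅V, (⊤ : Subgroup G)⁆, ⁅u, d⁆ = ⁅u, w⁆ * r
  UY : ∀ u ∈ U, ∀ f ∈ Y, ⁅u, f⁆ ∈ ⁅V, (⊤ : Subgroup G)⁆
  lift : ∀ w ∈ W, ∀ s ∈ (S : Subgroup G), ∃ a ∈ W,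
    (∀ t ∈ (S : Subgroup G), ⁅t, a⁆ ∈ Z) ∧ a⁻¹ * ⁅s, w⁆ ∈ Y
  val : ∃ w ∈ W, ∃ s ∈ (S : Subgroup G), ⁅s, ⁅s, w⁆⁆ ∉ Z

namespace MidTwo

variable {n : ℕ} {S : Sylow p G} {U : Subgroup G} {SV : NatSection V Z F} {SM : NatSection W Y F}
  (h : MidTwo n S U SV SM)
include h

theorem two_ne : (2 : F) ≠ 0 := fun e => one_ne_zero (α := F) (by linear_combination h.char - e)

theorem neg_two_mulVec (v : Fin 2 → F) : -v - v = v := by
  funext i
  simp only [Pi.sub_apply, Pi.neg_apply]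
  linear_combination (-(v i)) * h.char

theorem A_le_W : ⁅pCore p G, pResidual p G⁆ ≤ W := by
  haveI := SM.normal
  haveI : (centMod (pCore p G) W).Normal := centMod_normal _ W
  obtain ⟨z, hz, hzQ⟩ := h.mid.exists_not
  obtain ⟨u, hu, c, hc, rfl⟩ := h.dec z hz
  have huQ : u ∉ pCore p G := fun hc' => hzQ (Subgroup.mul_mem _ hc' hc)
  have huN : u ∈ centMod (pCore p G) W := fun d hd => by
    obtain ⟨w, hw, r, hr, e⟩ := h.UQ u hu d hd
    rw [e]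
    haveI := SV.normal
    exact W.mul_mem (SM.comm_mem u hw) (h.V_le (Subgroup.commutator_le_left V ⊤ hr))
  have hLN : pResidual p G ≤ centMod (pCore p G) W :=
    pResidual_le_of_sup_eq_top S.2 (h.mid.cover _ inferInstance ⟨u, huN, h.U_le hu, huQ⟩)
  rw [Subgroup.commutator_le]
  intro a ha l hl
  rw [← commutatorElement_inv]
  exact W.inv_mem (hLN hl a ha)

theorem A_le_WG : ⁅pCore p G, pResidual p G⁆ ≤ ⁅W, (⊤ : Subgroup G)⁆ := by
  haveI : (pResidual p G).Normal := normal_pResidual'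
  rw [← commutator_residual_idem h.mid.pgroup_Q]
  exact Subgroup.commutator_mono h.A_le_W le_top

theorem imageM : (pResidual p G).map SM.ρ = commutator (SL(2, F)) := by
  refine map_residual_eq_commutator SM.ρ SM.surjρ S (fun a ha b hb => ?_)
    (fun _ hN hS => h.mid.gen hN hS)
  rw [← sub_iff, ← map_commutatorElement]
  refine h.kerM _ ((h.mid.kerρ _).1 ?_)
  rw [map_commutatorElement, sub_iff]
  obtain ⟨s, hs⟩ := h.mid.upper a ha
  obtain ⟨t, ht⟩ := h.mid.upper b hb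
  rw [hs, ht, upS_comm]

theorem imageM_ne : (pResidual p G).map SM.ρ ≠ ⊥ := h.imageM ▸ commutator_sl_ne_bot

theorem cover_W : W ≤ Y ⊔ ⁅pCore p G, pResidual p G⁆ := by
  haveI : (pResidual p G).Normal := normal_pResidual'
  have h1 := SM.cover_of_comm (A := ⁅pCore p G, pResidual p G⁆) h.imageM_ne inferInstance
    fun l hl a ha => h.mid.comm_L_mem l hl (h.W_le ha)
  exact h1.trans (sup_le_sup_left inf_le_left Y)

theorem UA {u d : G} (hu : u ∈ U) (hd : d ∈ pCore p G) : ⁅u, d⁆ ∈ ⁅pCore p G, pResidual p G⁆ := by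
  haveI : (pResidual p G).Normal := normal_pResidual'
  obtain ⟨w, hw, r, hr, e⟩ := h.UQ u hu d hd
  haveI := SM.normal'
  set A := ⁅pCore p G, pResidual p G⁆
  have hA : A.Normal := inferInstance
  obtain ⟨f, hf, a, ha, rfl⟩ := Subgroup.mem_sup_of_normal_left.1 (h.cover_W hw)
  rw [e]
  refine A.mul_mem ?_ (h.mid.comm_V_top hr)
  rw [comm_mul_right]
  exact A.mul_mem (h.mid.comm_V_top (h.UY u hu f hf))
    (hA.conj_mem _ (A.mul_mem (hA.conj_mem a ha u) (A.inv_mem ha)) f)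

theorem inter : pResidual p G ⊓ pCore p G = ⁅pCore p G, pResidual p G⁆ :=
  h.mid.inter_eq h.U_comm h.dec fun u hu c hc => h.UA hu hc

theorem V_comm {v d : G} (hv : v ∈ V) (hd : d ∈ pCore p G) : d * v = v * d := h.mid.commQ d hd v hv

/-- An element inverting both sections. -/
theorem exists_inv : ∃ t ∈ pResidual p G, SV.ρ t = negSB F ∧ SM.ρ t = negSB F := by
  obtain ⟨t, ht, e⟩ : negSB F ∈ (pResidual p G).map SV.ρ := h.mid.image ▸ negS_mem_commutator h.char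
  refine ⟨t, ht, e, eq_negS_of_sq h.two_ne ?_ fun e1 => negS_ne_one h.two_ne ?_⟩
  · rw [← map_mul]
    exact h.kerM _ ((h.mid.kerρ _).1 (by rw [map_mul, e, negS_mul_self]))
  · rw [← e]
    refine (h.mid.kerρ t).2 ?_
    haveI : Finite F := Nat.finite_of_card_ne_zero (h.cardF ▸ by have := h.one_lt; omega)
    have hle : pCore p G ≤ SM.ρ.ker := fun g hg => MonoidHom.mem_ker.2 (h.kerM g hg)
    have hQ : pCore p G = SV.ρ.ker := by ext g; exact (h.mid.kerρ g).symm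
    have hidx : (pCore p G).index = SM.ρ.ker.index := by
      rw [hQ, Subgroup.index_ker, Subgroup.index_ker, MonoidHom.range_eq_top.2 SV.surjρ,
        MonoidHom.range_eq_top.2 SM.surjρ]
    have heq : pCore p G = SM.ρ.ker := by
      refine Subgroup.eq_of_le_of_card_ge hle ?_
      have h1 := Subgroup.card_mul_index (pCore p G)
      have h2 := Subgroup.card_mul_index SM.ρ.ker
      rw [hidx] at h1
      exact (Nat.eq_of_mul_eq_mul_right (Nat.pos_of_ne_zero Subgroup.index_ne_zero_of_finite)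
        (h2.trans h1.symm)).le
    rw [heq]; exact e1

/-- The residual centralises what the group centralises modulo the bottom. -/
theorem cent_of_mod {f : G} (hf : f ∈ W) (hfg : ∀ g : G, ⁅g, f⁆ ∈ Z) {l : G} (hl : l ∈ pResidual p G) :
    ⁅l, f⁆ = 1 := by
  refine Subgroup.mem_bot.1 (mem_centMod_of_stab (Q := Subgroup.zpowers f) (A := Z) (B := ⊥)
    ((h.mid.pgroup_Q.to_le h.mid.V_le).to_le SV.le) hl (fun k _ a ha => ?_) (fun k _ w hw => ?_) f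
    (Subgroup.mem_zpowers f))
  · obtain ⟨i, rfl⟩ := Subgroup.mem_zpowers_iff.1 ha
    haveI := SV.normal'
    have hc : Commute (k : G ⧸ Z) (f : G ⧸ Z) := mem_of_commutes_mod (hfg k)
    refine (QuotientGroup.eq_one_iff _).1 ?_
    rw [← QuotientGroup.mk'_apply, map_commutatorElement, map_zpow, QuotientGroup.mk'_apply,
      QuotientGroup.mk'_apply, commutatorElement_eq_one_iff_mul_comm]
    exact hc.zpow_right i
  · rw [Subgroup.mem_bot]
    exact sub_iff.2 (h.mid.cen_comm hw k)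

variable {t : G} (htL : t ∈ pResidual p G) (htV : SV.ρ t = negSB F) (htM : SM.ρ t = negSB F)
include htL htV htM

theorem psiV_t (a : ↥V) : SV.ψ ⟨⁅t, (a : G)⁆, SV.comm_mem t a.2⟩ = SV.ψ a := by
  rw [SV.psi_comm, htV, negSB_mulVec, h.neg_two_mulVec]

theorem psiM_t (a : ↥W) : SM.ψ ⟨⁅t, (a : G)⁆, SM.comm_mem t a.2⟩ = SM.ψ a := by
  rw [SM.psi_comm, htM, negSB_mulVec, h.neg_two_mulVec]

/-- The kernel in the join splits. -/
theorem split {f : G} (hf : f ∈ Y) :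
    ⁅t, f⁆ ∈ V ∧ ⁅t, f⁆ ∈ ⁅pCore p G, pResidual p G⁆ ∧ ∀ g : G, ⁅g, ⁅t, f⁆⁻¹ * f⁆ ∈ Z := by
  have hfW := SM.le hf
  have hfV := (h.memY f hfW).1 hf
  refine ⟨hfV t, h.mid.comm_L_mem t htL (h.W_le hfW), fun g => ?_⟩
  haveI := SV.normal'
  set v := ⁅t, f⁆ with hv
  set f₀ := v⁻¹ * f with hf₀
  have hvV : v ∈ V := hfV t
  have hf₀V : ∀ x, ⁅x, f₀⁆ ∈ V := fun x => by
    rw [hf₀, comm_mul_right]
    exact V.mul_mem (SV.comm_mem x (V.inv_mem hvV)) (SV.normal.conj_mem _ (hfV x) v⁻¹)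
  have hf₀W : f₀ ∈ W := W.mul_mem (W.inv_mem (h.V_le hvV)) hfW
  have hzero : SV.ψ ⟨⁅t, f₀⁆, hf₀V t⟩ = 0 := by
    have e : ⁅t, f₀⁆ = ⁅t, v⁻¹⁆ * v := by
      rw [hf₀, comm_mul_right, ← hv]; simp
    have e2 := h.psiV_t htL htV htM ⟨v⁻¹, V.inv_mem hvV⟩
    rw [SV.psi_congr e (hf₀V t) (V.mul_mem (SV.comm_mem t (V.inv_mem hvV)) hvV)]
    rw [show (⟨⁅t, v⁻¹⁆ * v, _⟩ : ↥V) = ⟨_, SV.comm_mem t (V.inv_mem hvV)⟩ * ⟨v, hvV⟩ from rfl,
      SV.map_mul]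
    rw [e2, show (⟨v⁻¹, V.inv_mem hvV⟩ : ↥V) = (⟨v, hvV⟩ : ↥V)⁻¹ from rfl, SV.map_inv,
      neg_add_cancel]
  have ht₀ : ⁅t, f₀⁆ ∈ Z := (SV.ker ⟨_, hf₀V t⟩).1 hzero
  set q := ⁅t, g⁆ with hq
  have hqQ : q ∈ pCore p G := (h.mid.kerρ q).1 (by
    rw [hq, map_commutatorElement, htV, sub_iff]; exact negSB_comm _)
  set y : G := ⁅g, f₀⁆ with hy
  have hyV : y ∈ V := hf₀V g
  refine (SV.ker ⟨y, hyV⟩).1 ?_
  -- in the quotient by the bottom
  have c1 : (t : G ⧸ Z) * f₀ = f₀ * t := mem_of_commutes_mod ht₀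
  have c2 : (q : G ⧸ Z) * f₀ = f₀ * q := mem_of_commutes_mod (by
    rw [← commutatorElement_inv]; exact Z.inv_mem (h.commWQ _ hf₀W _ hqQ))
  have c3 : (q : G ⧸ Z) * y = y * q := by
    rw [← QuotientGroup.mk_mul, ← QuotientGroup.mk_mul, h.V_comm hyV hqQ]
  have c4 : ((t * y * t⁻¹ : G) : G ⧸ Z) = ((y⁻¹ : G) : G ⧸ Z) := by
    rw [QuotientGroup.eq]
    have hty := SV.normal.conj_mem y hyV t
    refine (SV.ker ⟨_, V.mul_mem (V.inv_mem hty) (V.inv_mem hyV)⟩).1 ?_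
    rw [show (⟨(t * y * t⁻¹)⁻¹ * y⁻¹, _⟩ : ↥V) = (⟨_, hty⟩ : ↥V)⁻¹ * (⟨y, hyV⟩ : ↥V)⁻¹ from rfl,
      SV.map_mul, SV.map_inv, SV.map_inv, SV.equiv t ⟨y, hyV⟩ ⟨_, hty⟩ rfl, htV, negSB_mulVec,
      neg_neg, add_neg_cancel]
  have c5 : (g : G ⧸ Z) * f₀ = y * (f₀ * g) := by
    rw [← QuotientGroup.mk_mul, ← QuotientGroup.mk_mul, ← QuotientGroup.mk_mul]
    congr 1
    simp [hy, commutatorElement_def, mul_assoc]
  have c6 : (t : G ⧸ Z) * g = q * g * t := by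
    rw [← QuotientGroup.mk_mul, ← QuotientGroup.mk_mul, ← QuotientGroup.mk_mul]
    congr 1
    simp [hq, commutatorElement_def, mul_assoc]
  rw [QuotientGroup.mk_mul, QuotientGroup.mk_mul, QuotientGroup.mk_inv, QuotientGroup.mk_inv,
    mul_inv_eq_iff_eq_mul] at c4
  have key : ((y : G) : G ⧸ Z) * y = 1 := by
    have l1 : (t : G ⧸ Z) * g * f₀ = (y : G ⧸ Z)⁻¹ * f₀ * (t * g) := by
      calc (t : G ⧸ Z) * g * f₀ = (t : G ⧸ Z) * y * (f₀ * g) := by rw [mul_assoc, c5, mul_assoc]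
        _ = (y : G ⧸ Z)⁻¹ * (t * f₀) * g := by rw [c4]; simp [mul_assoc]
        _ = (y : G ⧸ Z)⁻¹ * f₀ * (t * g) := by rw [c1]; simp [mul_assoc]
    have l2 : (t : G ⧸ Z) * g * f₀ = (y : G ⧸ Z) * f₀ * (t * g) := by
      calc (t : G ⧸ Z) * g * f₀ = (q : G ⧸ Z) * (g * (t * f₀)) := by rw [c6]; simp [mul_assoc]
        _ = (q : G ⧸ Z) * (g * f₀ * t) := by rw [c1]; simp [mul_assoc]
        _ = (q * y : G ⧸ Z) * (f₀ * g * t) := by rw [c5]; simp [mul_assoc]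
        _ = (y * (q * f₀) : G ⧸ Z) * (g * t) := by rw [c3]; simp [mul_assoc]
        _ = (y : G ⧸ Z) * f₀ * (q * g * t) := by rw [c2]; simp [mul_assoc]
        _ = (y : G ⧸ Z) * f₀ * (t * g) := by rw [c6]
    have := mul_right_cancel (mul_right_cancel (l1.symm.trans l2))
    nth_rewrite 1 [← this]
    exact inv_mul_cancel _
  rw [← QuotientGroup.mk_mul, QuotientGroup.eq_one_iff] at key
  have h2 : SV.ψ ⟨y, hyV⟩ + SV.ψ ⟨y, hyV⟩ = 0 := by
    rw [← SV.map_mul]; exact (SV.ker (⟨y, hyV⟩ * ⟨y, hyV⟩)).2 key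
  funext i
  have h3 := congrFun h2 i
  simp only [Pi.add_apply, Pi.zero_apply] at h3
  rw [← two_mul] at h3
  exact (mul_eq_zero.1 h3).resolve_left h.two_ne

theorem t_fix {f₀ : G} (hf : f₀ ∈ W) (hfg : ∀ g : G, ⁅g, f₀⁆ ∈ Z) : ⁅t, f₀⁆ = 1 := h.cent_of_mod hf hfg htL

omit htL htV htM

theorem derived_le : ⁅⁅pCore p G, pResidual p G⁆, ⁅pCore p G, pResidual p G⁆⁆ ≤ Z := by
  rw [Subgroup.commutator_le]
  exact fun a ha b hb => h.commWQ a (h.A_le_W ha) b (h.W_le (h.A_le_W hb))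

theorem zcomm {a d : G} (ha : a ∈ W) (hd : d ∈ pCore p G) (g : G) : g * ⁅a, d⁆ = ⁅a, d⁆ * g :=
  h.mid.cen_comm (h.commWQ a ha d hd) g

/-- `[A, Q] ≤ [A, A]`. -/
theorem comm_A_Q {a d : G} (ha : a ∈ ⁅pCore p G, pResidual p G⁆) (hd : d ∈ pCore p G) :
    ⁅a, d⁆ ∈ ⁅⁅pCore p G, pResidual p G⁆, ⁅pCore p G, pResidual p G⁆⁆ := by
  haveI hLn : (pResidual p G).Normal := normal_pResidual'
  set L := pResidual p G with hL
  set A := ⁅pCore p G, L⁆ with hA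
  set Z₀ := ⁅A, A⁆
  have hAW : A ≤ W := h.A_le_W
  let K : Subgroup G :=
    { carrier := {a | a ∈ A ∧ ∀ d ∈ pCore p G, ⁅a, d⁆ ∈ Z₀}
      one_mem' := ⟨one_mem _, fun d _ => by simp⟩
      mul_mem' := fun {x y} hx hy => ⟨A.mul_mem hx.1 hy.1, fun d hd => by
        rw [comm_mul_left, h.zcomm (hAW hy.1) hd x, mul_inv_cancel_right]
        exact Z₀.mul_mem (hy.2 d hd) (hx.2 d hd)⟩
      inv_mem' := fun {x} hx => ⟨A.inv_mem hx.1, fun d hd => by
        have e : ⁅x⁻¹, d⁆ = x⁻¹ * ⁅x, d⁆⁻¹ * x := by simp [commutatorElement_def, mul_assoc]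
        have hc : Commute x⁻¹ ⁅x, d⁆⁻¹ := Commute.inv_right (h.zcomm (hAW hx.1) hd x⁻¹)
        rw [e, hc.eq, inv_mul_cancel_right]
        exact Z₀.inv_mem (hx.2 d hd)⟩ }
  have hle : A ≤ K := by
    conv_lhs => rw [hA, ← commutator_residual_idem (Q := pCore p G) h.mid.pgroup_Q]
    rw [Subgroup.commutator_le]
    intro a ha l hl
    refine ⟨Subgroup.commutator_le_left A L (Subgroup.commutator_mem_commutator ha hl), fun d hd => ?_⟩
    have hAn : A.Normal := inferInstance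
    set a' := l * a⁻¹ * l⁻¹ with ha'
    have ha'A : a' ∈ A := hAn.conj_mem _ (A.inv_mem ha) l
    have e : ⁅a, l⁆ = a * a' := by simp [ha', commutatorElement_def, mul_assoc]
    rw [e, comm_mul_left, h.zcomm (hAW ha'A) hd a, mul_inv_cancel_right]
    set d' := l⁻¹ * d * l with hd'
    have hd'Q : d' ∈ pCore p G := by
      simpa [hd'] using (inferInstance : (pCore p G).Normal).conj_mem d hd l⁻¹
    have e1 : ⁅a', d⁆ = ⁅a⁻¹, d'⁆ := by
      have e' : ⁅a', d⁆ = l * ⁅a⁻¹, d'⁆ * l⁻¹ := by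
        simp [ha', hd', commutatorElement_def, mul_assoc]
      rw [e', h.zcomm (hAW (A.inv_mem ha)) hd'Q l, mul_inv_cancel_right]
    set w := ⁅l⁻¹, d⁆ with hw
    have hwA : w ∈ A := h.mid.comm_L_mem _ (L.inv_mem hl) hd
    have e2 : d' = w * d := by simp [hw, hd', commutatorElement_def, mul_assoc]
    have e3 : ⁅a⁻¹, d⁆ * ⁅a, d⁆ = 1 := by
      have := comm_mul_left a a⁻¹ d
      rw [mul_inv_cancel, commutatorElement_one_left, h.zcomm (hAW (A.inv_mem ha)) hd a,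
        mul_inv_cancel_right] at this
      exact this.symm
    rw [e1, e2, comm_mul_right, h.zcomm (hAW (A.inv_mem ha)) hd w, mul_inv_cancel_right, mul_assoc, e3,
      mul_one]
    exact Subgroup.commutator_mem_commutator (A.inv_mem ha) hwA
  exact (hle ha).2 d hd

include htL htV htM

/-- The centre of the block. -/
theorem cent_le {x : G} (hx : x ∈ ⁅pCore p G, pResidual p G⁆)
    (hxc : ∀ l ∈ pResidual p G, l * x = x * l) :
    x ∈ ⁅⁅pCore p G, pResidual p G⁆, ⁅pCore p G, pResidual p G⁆⁆ := by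
  haveI hLn : (pResidual p G).Normal := normal_pResidual'
  set L := pResidual p G with hL
  set A := ⁅pCore p G, L⁆ with hA
  set Z₀ := ⁅A, A⁆ with hZ₀
  have hAW : A ≤ W := h.A_le_W
  have hAn : A.Normal := inferInstance
  haveI : Z₀.Normal := inferInstance
  have hAQ : ∀ {a}, a ∈ A → a ∈ pCore p G := fun ha => h.W_le (hAW ha)
  have htA : ∀ {a}, a ∈ A → ⁅t, a⁆ ∈ A := fun ha => h.mid.comm_L_mem t htL (hAQ ha)
  set π := QuotientGroup.mk' Z₀
  have hcA : ∀ {a b}, a ∈ A → b ∈ A → π a * π b = π b * π a := fun ha hb =>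
    mem_of_commutes_mod (Subgroup.commutator_mem_commutator ha hb)
  let θ : ↥A →* G ⧸ Z₀ :=
    { toFun := fun a => π ⁅t, (a : G)⁆
      map_one' := by simp
      map_mul' := fun a b => by
        show π ⁅t, (a : G) * b⁆ = π ⁅t, (a : G)⁆ * π ⁅t, (b : G)⁆
        rw [comm_mul_right, map_mul, map_mul, map_mul, hcA a.2 (htA b.2), map_inv,
          mul_inv_cancel_right] }
  set T := θ.range.comap π with hT
  -- commutators with the residual land in the image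
  have hAT : A ≤ T := by
    conv_lhs => rw [hA, ← commutator_residual_idem (Q := pCore p G) h.mid.pgroup_Q]
    rw [Subgroup.commutator_le]
    intro a ha l hl
    have hb : ⁅t, a⁆⁻¹ * a ∈ Y := by
      refine (SM.ker ⟨_, W.mul_mem (W.inv_mem (hAW (htA ha))) (hAW ha)⟩).1 ?_
      rw [show (⟨⁅t, a⁆⁻¹ * a, _⟩ : ↥W) = (⟨⁅t, a⁆, hAW (htA ha)⟩ : ↥W)⁻¹ * ⟨a, hAW ha⟩ from rfl,
        SM.map_mul, SM.map_inv, h.psiM_t htL htV htM ⟨a, hAW ha⟩, neg_add_cancel]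
    set b := ⁅t, a⁆⁻¹ * a with hbdef
    have hbA : b ∈ A := A.mul_mem (A.inv_mem (htA ha)) ha
    obtain ⟨hvV, hvA, hfg⟩ := h.split htL htV htM hb
    set c := ⁅t, b⁆⁻¹ * b with hc
    have hcW : c ∈ W := W.mul_mem (W.inv_mem (h.V_le hvV)) (hAW hbA)
    have ea : a = ⁅t, a * b⁆ * c := by
      rw [comm_mul_right, h.V_comm hvV (hAQ ha), mul_inv_cancel_right]
      rw [hc, mul_assoc, mul_inv_cancel_left, hbdef, mul_inv_cancel_left]
    set x := ⁅t, a * b⁆ with hx'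
    have e : ⁅a, l⁆ = x * (l * x⁻¹ * l⁻¹) := by
      have hcl : ⁅c, l⁆ = 1 := by
        rw [← commutatorElement_inv, h.cent_of_mod hcW hfg hl, inv_one]
      rw [ea, comm_mul_left, hcl, mul_one, mul_inv_cancel, one_mul]
      simp [commutatorElement_def, mul_assoc]
    rw [e]
    have hxT : x ∈ T := ⟨⟨a * b, A.mul_mem ha hbA⟩, rfl⟩
    refine T.mul_mem hxT ?_
    suffices π (l * x * l⁻¹) ∈ θ.range by
      have h1 := T.inv_mem (show l * x * l⁻¹ ∈ T from this)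
      simpa [mul_assoc] using h1
    set a₁ := l * (a * b) * l⁻¹ with ha₁
    have ha₁A : a₁ ∈ A := hAn.conj_mem _ (A.mul_mem ha hbA) l
    refine ⟨⟨a₁, ha₁A⟩, ?_⟩
    set k := ⁅l, t⁆ with hk
    have hkQ : k ∈ pCore p G := (h.mid.kerρ k).1 (by
      rw [hk, map_commutatorElement, htV, sub_iff]; exact (negSB_comm _).symm)
    have e2 : l * x * l⁻¹ = k * ⁅t, a₁⁆ * k⁻¹ * ⁅k, a₁⁆ := by
      simp [hx', hk, ha₁, commutatorElement_def, mul_assoc]
    show π ⁅t, a₁⁆ = π (l * x * l⁻¹)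
    have hk1 : π ⁅k, a₁⁆ = 1 := (QuotientGroup.eq_one_iff _).2 (by
      rw [← commutatorElement_inv]; exact Z₀.inv_mem (h.comm_A_Q ha₁A hkQ))
    have hk2 : π k * π ⁅t, a₁⁆ = π ⁅t, a₁⁆ * π k := by
      refine mem_of_commutes_mod (A := Z₀) (a := k) (b := ⁅t, a₁⁆) ?_
      rw [← commutatorElement_inv]
      exact Z₀.inv_mem (h.comm_A_Q (htA ha₁A) hkQ)
    rw [e2, map_mul, map_mul, map_mul, hk1, mul_one, hk2, map_inv, mul_inv_cancel_right]
  obtain ⟨⟨a, ha⟩, hae⟩ := hAT hx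
  have hae' : π ⁅t, a⁆ = π x := hae
  obtain ⟨z, hz, ez⟩ : ∃ z ∈ Z₀, ⁅t, a⁆ = x * z :=
    ⟨x⁻¹ * ⁅t, a⁆, QuotientGroup.eq.1 hae'.symm, by simp⟩
  have hzZ : z ∈ Z := h.derived_le hz
  -- the element lies in the kernel of the top section
  have hxY : x ∈ Y := by
    haveI := SM.normal
    refine SM.le_of_centralized h.imageM_ne
      (Subgroup.normal_inf_normal W (Subgroup.centralizer (L : Set G))) inf_le_left
      (fun l hl a ha => ?_) ⟨hAW hx, hxc⟩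
    rw [sub_iff.2 (ha.2 l hl)]
    exact Y.one_mem
  have hzY : z ∈ Y := (h.memY z (h.V_le (SV.le hzZ))).2 fun g => by
    rw [sub_iff.2 (h.mid.cen_comm hzZ g)]; exact V.one_mem
  have haY : a ∈ Y := by
    refine (SM.ker ⟨a, hAW ha⟩).1 ?_
    rw [← h.psiM_t htL htV htM ⟨a, hAW ha⟩]
    exact (SM.ker _).2 (show ⁅t, a⁆ ∈ Y from ez ▸ Y.mul_mem hxY hzY)
  obtain ⟨hvV, -, hfg⟩ := h.split htL htV htM haY
  set v := ⁅t, a⁆ with hv
  have e : v = ⁅t, v⁆ := by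
    conv_lhs => rw [hv, show a = v * (v⁻¹ * a) by simp, comm_mul_right,
      h.t_fix htL htV htM (W.mul_mem (W.inv_mem (h.V_le hvV)) (hAW ha)) hfg]
    simp
  have hvZ : v ∈ Z := (h.mid.inf_centralizer hvV).1 fun l hl => by
    rw [ez]
    exact Commute.mul_right (hxc l hl) (h.mid.cen_comm hzZ l)
  have hv1 : v = 1 := by rw [e]; exact sub_iff.2 (h.mid.cen_comm hvZ t)
  rw [show x = z⁻¹ from eq_inv_of_mul_eq_one_left (ez ▸ hv1)]
  exact Z₀.inv_mem hz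

theorem inf_Y {a : G} (ha : a ∈ ⁅pCore p G, pResidual p G⁆) (hY : a ∈ Y) : a ∈ V := by
  haveI hLn : (pResidual p G).Normal := normal_pResidual'
  obtain ⟨hvV, hvA, hfg⟩ := h.split htL htV htM hY
  have h1 := h.cent_le htL htV htM (Subgroup.mul_mem _ (Subgroup.inv_mem _ hvA) ha) fun l hl =>
    sub_iff.1 (h.cent_of_mod
      (W.mul_mem (W.inv_mem (h.V_le hvV)) (h.A_le_W ha)) hfg hl)
  have h2 : ⁅t, a⁆⁻¹ * a ∈ V := SV.le (h.derived_le h1)
  rw [← mul_inv_cancel_left ⁅t, a⁆ a]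
  exact V.mul_mem hvV h2

/-- Any element of the join is a member of the block times an element centralised modulo the bottom. -/
theorem decomp {w : G} (hw : w ∈ W) : ∃ a ∈ ⁅pCore p G, pResidual p G⁆, ∃ f ∈ W,
    (∀ g : G, ⁅g, f⁆ ∈ Z) ∧ w = a * f := by
  haveI hLn : (pResidual p G).Normal := normal_pResidual'
  haveI := SM.normal'
  obtain ⟨a, ha, f, hf, rfl⟩ : ∃ a ∈ ⁅pCore p G, pResidual p G⁆, ∃ f ∈ Y, w = a * f := by
    have h1 := h.cover_W hw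
    rw [sup_comm] at h1
    obtain ⟨a, ha, f, hf, e⟩ := Subgroup.mem_sup_of_normal_right.1 h1
    exact ⟨a, ha, f, hf, e.symm⟩
  obtain ⟨hvV, hvA, hfg⟩ := h.split htL htV htM hf
  exact ⟨a * ⁅t, f⁆, Subgroup.mul_mem _ ha hvA, ⁅t, f⁆⁻¹ * f,
    W.mul_mem (W.inv_mem (h.V_le hvV)) (SM.le hf), hfg, by rw [mul_assoc, mul_inv_cancel_left]⟩

end MidTwo

end CfsgLib.PushUp.RankOne
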