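import Cfsg.Agent.Lib.PushUp.RankOne.BlockTwo

/-!
Rank one pushing up: the commutator form on the exceptional block, and the block for `b = 2`.
-/

set_option autoImplicit false
set_option linter.unusedSectionVars false
set_option linter.style.haveILetI false

namespace CfsgLib.PushUp.RankOne

open Cfsg
open scoped commutatorElement MatrixGroups
open Matrix
open CfsgLib.ClassicalLinear (upS upS_coe upS_add)
open CfsgLib.SL2Gen (lowS lowS_coe)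
open CfsgLib.StronglyPEmbedded (normal_pResidual')

variable {G : Type*} [Group G] [Finite G] {p : ℕ} [hp : Fact p.Prime] {F : Type} [Field F]
  {V Z W Y : Subgroup G} {n : ℕ} {S : Sylow p G} {U : Subgroup G} {SV : NatSection V Z F}
  {SM : NatSection W Y F}

namespace MidTwo

variable (h : MidTwo n S U SV SM)
include h

theorem exists_lift (u : Fin 2 → F) :
    ∃ a, ∃ ha : a ∈ ⁅pCore p G, pResidual p G⁆, SM.ψ ⟨a, h.A_le_W ha⟩ = u := by
  obtain ⟨w, hw⟩ := SM.surjψ u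
  haveI := SM.normal'
  obtain ⟨y, hy, a, ha, e⟩ := Subgroup.mem_sup_of_normal_left.1 (h.cover_W w.2)
  refine ⟨a, ha, Eq.trans ?_ hw⟩
  rw [show w = ⟨y, SM.le hy⟩ * ⟨a, h.A_le_W ha⟩ from Subtype.ext e.symm, SM.map_mul,
    (SM.ker ⟨y, SM.le hy⟩).2 hy, zero_add]

theorem card_derived :
    Nat.card ↥⁅⁅pCore p G, pResidual p G⁆, ⁅pCore p G, pResidual p G⁆⁆ = p ^ n := by
  haveI hLn : (pResidual p G).Normal := normal_pResidual'
  set A := ⁅pCore p G, pResidual p G⁆ with hA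
  have hAW : A ≤ W := h.A_le_W
  have hAQ : ∀ {a}, a ∈ A → a ∈ pCore p G := fun ha => h.W_le (hAW ha)
  have hAn : A.Normal := inferInstance
  choose ℓ hℓ hψ using h.exists_lift
  set B : (Fin 2 → F) → (Fin 2 → F) → G := fun u v => ⁅ℓ u, ℓ v⁆ with hB
  have hwd : ∀ {a c : G} (ha : a ∈ A) (hc : c ∈ A),
      ⁅a, c⁆ = B (SM.ψ ⟨a, hAW ha⟩) (SM.ψ ⟨c, hAW hc⟩) := fun ha hc =>
    h.form ⟨_, hAW ha⟩ ⟨_, hAW (hℓ _)⟩ ⟨_, hAW hc⟩ ⟨_, hAW (hℓ _)⟩ (h.A_le_WG ha)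
      (h.A_le_WG (hℓ _)) (hψ _).symm (hψ _).symm
  have hcen : ∀ {a c : G}, a ∈ A → c ∈ A → ∀ g, g * ⁅a, c⁆ = ⁅a, c⁆ * g := fun ha hc =>
    h.zcomm (hAW ha) (hAQ hc)
  have haddl : ∀ u u' v, B (u + u') v = B u v * B u' v := fun u u' v => by
    have e1 : SM.ψ ⟨ℓ u * ℓ u', hAW (A.mul_mem (hℓ u) (hℓ u'))⟩ = u + u' :=
      (SM.map_mul ⟨ℓ u, hAW (hℓ u)⟩ ⟨ℓ u', hAW (hℓ u')⟩).trans (by rw [hψ, hψ])
    have e2 := hwd (A.mul_mem (hℓ u) (hℓ u')) (hℓ v)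
    rw [e1, hψ, comm_mul_left, hcen (hℓ u') (hℓ v) (ℓ u), mul_inv_cancel_right,
      hcen (hℓ u) (hℓ v) _] at e2
    exact e2.symm
  have hanti : ∀ u v, B v u = (B u v)⁻¹ := fun u v => (commutatorElement_inv _ _).symm
  have haddr : ∀ u v v', B u (v + v') = B u v * B u v' := fun u v v' => by
    rw [hanti (v + v') u, haddl, _root_.mul_inv_rev, ← hanti, ← hanti]
    exact (hcen (hℓ u) (hℓ v) _)
  have hinv : ∀ (γ : SL(2, F)) u v,
      B ((γ : Matrix (Fin 2) (Fin 2) F) *ᵥ u) ((γ : Matrix (Fin 2) (Fin 2) F) *ᵥ v) = B u v := by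
    intro γ u v
    obtain ⟨g, rfl⟩ := SM.surjρ γ
    have hu := hAn.conj_mem _ (hℓ u) g
    have hv := hAn.conj_mem _ (hℓ v) g
    have e2 := hwd hu hv
    rw [SM.equiv g ⟨ℓ u, hAW (hℓ u)⟩ ⟨_, hAW hu⟩ rfl, SM.equiv g ⟨ℓ v, hAW (hℓ v)⟩ ⟨_, hAW hv⟩ rfl,
      hψ, hψ] at e2
    rw [← e2, show ⁅g * ℓ u * g⁻¹, g * ℓ v * g⁻¹⁆ = g * ⁅ℓ u, ℓ v⁆ * g⁻¹ by
      simp [commutatorElement_def, mul_assoc], hcen (hℓ u) (hℓ v) g, mul_inv_cancel_right]
  have hzero : ∀ v, B 0 v = 1 := fun v => by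
    have e := haddl 0 0 v
    rw [add_zero] at e
    exact left_eq_mul.1 e
  have hzero' : ∀ u, B u 0 = 1 := fun u => by rw [hanti, hzero, inv_one]
  -- the form is a function of the determinant
  let g : Multiplicative F →* G :=
    { toFun := fun t => B ![1, 0] ![0, t.toAdd]
      map_one' := by
        rw [show (![0, (1 : Multiplicative F).toAdd] : Fin 2 → F) = 0 by
          funext i; fin_cases i <;> simp]
        exact hzero' _
      map_mul' := fun s t => by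
        rw [← haddr]
        congr 1
        funext i; fin_cases i <;> simp }
  have hhor : ∀ x b : F, B ![x, 0] ![b, 0] = 1 := fun x b => by
    have e := hinv (upS x) ![0, 1] ![b, 0]
    rw [upS_mulVec, upS_mulVec] at e
    rw [show (![(![0, 1] : Fin 2 → F) 0 + x * (![0, 1] : Fin 2 → F) 1, (![0, 1] : Fin 2 → F) 1] :
      Fin 2 → F) = ![x, 0] + ![0, 1] by funext i; fin_cases i <;> simp,
      show (![(![b, 0] : Fin 2 → F) 0 + x * (![b, 0] : Fin 2 → F) 1, (![b, 0] : Fin 2 → F) 1] :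
      Fin 2 → F) = ![b, 0] by funext i; fin_cases i <;> simp, haddl] at e
    exact mul_eq_right.1 e
  have hver : ∀ x b : F, B ![0, x] ![0, b] = 1 := fun x b => by
    have e := hinv (lowS x) ![1, 0] ![0, b]
    rw [lowS_mulVec, lowS_mulVec] at e
    rw [show (![(![1, 0] : Fin 2 → F) 0, x * (![1, 0] : Fin 2 → F) 0 + (![1, 0] : Fin 2 → F) 1] :
      Fin 2 → F) = ![0, x] + ![1, 0] by funext i; fin_cases i <;> simp,
      show (![(![0, b] : Fin 2 → F) 0, x * (![0, b] : Fin 2 → F) 0 + (![0, b] : Fin 2 → F) 1] :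
      Fin 2 → F) = ![0, b] by funext i; fin_cases i <;> simp, haddl] at e
    exact mul_eq_right.1 e
  have hmix : ∀ a b : F, B ![a, 0] ![0, b] ∈ g.range := fun a b => by
    by_cases ha : a = 0
    · rw [show (![a, 0] : Fin 2 → F) = 0 by funext i; fin_cases i <;> simp [ha], hzero]
      exact one_mem _
    refine ⟨Multiplicative.ofAdd (a * b), ?_⟩
    have e := hinv ⟨!![a, 0; 0, a⁻¹], by simp [Matrix.det_fin_two, ha]⟩ ![1, 0] ![0, a * b]
    rw [show (!![a, 0; 0, a⁻¹] : Matrix (Fin 2) (Fin 2) F) *ᵥ ![1, 0] = ![a, 0] by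
        funext i; fin_cases i <;> simp [Matrix.mulVec, dotProduct, Fin.sum_univ_two],
      show (!![a, 0; 0, a⁻¹] : Matrix (Fin 2) (Fin 2) F) *ᵥ ![0, a * b] = ![0, b] by
        funext i; fin_cases i <;> simp [Matrix.mulVec, dotProduct, Fin.sum_univ_two, ha]] at e
    exact e.symm
  have hall : ∀ u v, B u v ∈ g.range := fun u v => by
    rw [show u = ![u 0, 0] + ![0, u 1] by funext i; fin_cases i <;> simp,
      show v = ![v 0, 0] + ![0, v 1] by funext i; fin_cases i <;> simp, haddl, haddr, haddr, hhor,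
      hver, one_mul, mul_one, hanti ![v 0, 0] ![0, u 1]]
    exact Subgroup.mul_mem _ (hmix _ _) (Subgroup.inv_mem _ (hmix _ _))
  haveI : Finite F := Nat.finite_of_card_ne_zero (h.cardF ▸ by have := h.one_lt; omega)
  refine le_antisymm ?_ ?_
  · refine (Subgroup.card_le_of_le (K := g.range) ?_).trans ?_
    · rw [Subgroup.commutator_le]
      exact fun a ha c hc => hwd ha hc ▸ hall _ _
    · refine (Nat.card_le_card_of_surjective _ g.rangeRestrict_surjective).trans ?_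
      rw [Nat.card_congr Multiplicative.toAdd, h.cardF]
  · obtain ⟨Z₁, hZ₁, hr⟩ := h.size
    rw [← hZ₁]
    refine Subgroup.card_le_of_le fun r hr' => ?_
    obtain ⟨v, hv, c, hc, rfl, hfc⟩ := hr r hr'
    haveI := SM.normal'
    obtain ⟨f, hf, a, ha, rfl⟩ := Subgroup.mem_sup_of_normal_left.1 (h.cover_W hv)
    obtain ⟨c', hc', ec⟩ := h.exists_lift (SM.ψ ⟨c, hc⟩)
    have e : ⁅f * a, c⁆ = ⁅a, c'⁆ := by
      rw [comm_mul_left, hfc f hf, mul_one, h.zcomm (hAW ha) (h.W_le hc) f, mul_inv_cancel_right]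
      exact h.form ⟨a, hAW ha⟩ ⟨a, hAW ha⟩ ⟨c, hc⟩ ⟨c', hAW hc'⟩ (h.A_le_WG ha) (h.A_le_WG ha) rfl
        ec.symm
    rw [e]
    exact Subgroup.commutator_mem_commutator ha hc'

theorem derived_ne : ∃ a ∈ ⁅pCore p G, pResidual p G⁆, ∃ c ∈ ⁅pCore p G, pResidual p G⁆, ⁅a, c⁆ ≠ 1 := by
  by_contra hc
  push Not at hc
  have h1 : ⁅⁅pCore p G, pResidual p G⁆, ⁅pCore p G, pResidual p G⁆⁆ = ⊥ := by
    rw [eq_bot_iff, Subgroup.commutator_le]
    exact fun a ha c hc' => Subgroup.mem_bot.2 (hc a ha c hc')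
  have h2 := h.card_derived
  rw [h1, Subgroup.card_bot] at h2
  have := h.one_lt
  omega

theorem omega_eq {t : G} (htL : t ∈ pResidual p G) (htV : SV.ρ t = negSB F) (htM : SM.ρ t = negSB F) :
    omegaOneCenter p ⁅pCore p G, pResidual p G⁆ = ⁅pCore p G, pResidual p G⁆ ⊓ V := by
  haveI hLn : (pResidual p G).Normal := normal_pResidual'
  set A := ⁅pCore p G, pResidual p G⁆ with hA
  have hAW : A ≤ W := h.A_le_W
  refine le_antisymm ((Subgroup.closure_le _).2 fun x hx => ⟨hx.1.1, ?_⟩) fun x hx =>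
    Subgroup.subset_closure ⟨⟨hx.1, fun a ha => h.V_comm hx.2 (h.W_le (hAW ha))⟩, h.mid.powV x hx.2⟩
  refine h.inf_Y htL htV htM hx.1.1 ?_
  have hCn : (A ⊓ Subgroup.centralizer (A : Set G)).Normal :=
    Subgroup.normal_inf_normal A (Subgroup.centralizer (A : Set G))
  refine ((SM.dichotomy hCn (inf_le_left.trans hAW)).resolve_right fun hle => ?_) hx.1
  obtain ⟨a, ha, c, hc, hne⟩ := h.derived_ne
  haveI := SM.normal'
  obtain ⟨y, hy, b, hb, e⟩ := Subgroup.mem_sup_of_normal_left.1 (hle (hAW ha))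
  refine hne ?_
  have hψ : SM.ψ ⟨a, hAW ha⟩ = SM.ψ ⟨b, hAW hb.1⟩ := by
    rw [show (⟨a, hAW ha⟩ : ↥W) = ⟨y, SM.le hy⟩ * ⟨b, hAW hb.1⟩ from Subtype.ext e.symm, SM.map_mul,
      (SM.ker ⟨y, SM.le hy⟩).2 hy, zero_add]
  exact (h.form ⟨a, hAW ha⟩ ⟨b, hAW hb.1⟩ ⟨c, hAW hc⟩ ⟨c, hAW hc⟩ (h.A_le_WG ha) (h.A_le_WG hb.1) hψ
    rfl).trans (sub_iff.2 (hb.2 c hc).symm)

theorem exists_phi {t₀ : G} (htL : t₀ ∈ pResidual p G) (htV : SV.ρ t₀ = negSB F)
    (htM : SM.ρ t₀ = negSB F) {w s : G} (hw : w ∈ W) (hs : s ∈ (S : Subgroup G)) :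
    ∃ φ : F, ∀ t ∈ (S : Subgroup G), ∀ τ, SV.ρ t = upS τ →
      ∃ hx : ⁅t, ⁅s, w⁆⁆ ∈ V, SV.ψ ⟨_, hx⟩ = ![τ * φ, 0] := by
  obtain ⟨a, haW, hat, hY⟩ := h.lift w hw s hs
  obtain ⟨hvV, -, hfg⟩ := h.split htL htV htM hY
  set f := a⁻¹ * ⁅s, w⁆ with hf
  set v := ⁅t₀, f⁆ with hv
  refine ⟨SV.ψ ⟨v, hvV⟩ 1, fun t ht τ hτ => ?_⟩
  set f₀ := v⁻¹ * f with hf₀
  have hz := hfg t
  have e : ⁅t, ⁅s, w⁆⁆ = ⁅t, a⁆ * ⁅t, v⁆ * ⁅t, f₀⁆ := by
    rw [show ⁅s, w⁆ = a * v * f₀ by rw [mul_assoc, hf₀, mul_inv_cancel_left, hf, mul_inv_cancel_left],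
      comm_mul_right, comm_mul_right, h.mid.cen_comm hz (a * v), mul_inv_cancel_right,
      h.V_comm (SV.comm_mem t hvV) (h.W_le haW), mul_inv_cancel_right]
  have hx1 : ⁅t, a⁆ ∈ V := SV.le (hat t ht)
  have hx3 : ⁅t, f₀⁆ ∈ V := SV.le hz
  have hmem := V.mul_mem (V.mul_mem hx1 (SV.comm_mem t hvV)) hx3
  refine ⟨e ▸ hmem, ?_⟩
  rw [SV.psi_congr e (e ▸ hmem) hmem,
    show (⟨⁅t, a⁆ * ⁅t, v⁆ * ⁅t, f₀⁆, hmem⟩ : ↥V) =
      ⟨_, hx1⟩ * ⟨_, SV.comm_mem t hvV⟩ * ⟨_, hx3⟩ from rfl, SV.map_mul, SV.map_mul,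
    (SV.ker ⟨_, hx1⟩).2 (hat t ht), (SV.ker ⟨_, hx3⟩).2 hz, SV.psi_comm t ⟨v, hvV⟩, hτ, upS_mulVec]
  funext i; fin_cases i <;> simp [Matrix.vecHead, Matrix.vecTail]

theorem symm_mod {w s t : G} (hw : w ∈ W) (hs : s ∈ (S : Subgroup G)) (ht : t ∈ (S : Subgroup G)) :
    ⁅s, ⁅t, w⁆⁆⁻¹ * ⁅t, ⁅s, w⁆⁆ ∈ Z := by
  haveI := SV.normal'
  set q := ⁅s, t⁆ with hq
  have hqQ : q ∈ pCore p G := (h.mid.kerρ q).1 (by
    rw [hq, map_commutatorElement, sub_iff]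
    obtain ⟨x, hx⟩ := h.mid.upper s hs
    obtain ⟨y, hy⟩ := h.mid.upper t ht
    rw [hx, hy, upS_comm])
  have hXs := SM.comm_mem s hw
  have hXt := SM.comm_mem t hw
  set E := ⁅t, ⁅s, w⁆⁆ * ⁅s, w⁆ * ⁅t, w⁆ * w with hE
  have hEW : E ∈ W := W.mul_mem (W.mul_mem (W.mul_mem (SM.comm_mem t hXs) hXs) hXt) hw
  have e : ⁅s, ⁅t, w⁆⁆ * ⁅t, w⁆ * ⁅s, w⁆ * w = q * E * q⁻¹ := by
    simp [hE, hq, commutatorElement_def, mul_assoc]
  have c1 : (q : G ⧸ Z) * E = E * q := mem_of_commutes_mod (by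
    rw [← commutatorElement_inv]; exact Z.inv_mem (h.commWQ _ hEW _ hqQ))
  have c2 : ((⁅t, w⁆ : G) : G ⧸ Z) * (⁅s, w⁆ : G) = (⁅s, w⁆ : G) * (⁅t, w⁆ : G) :=
    mem_of_commutes_mod (h.commWQ _ hXt _ (h.W_le hXs))
  have e' := congrArg (QuotientGroup.mk : G → G ⧸ Z) e
  rw [QuotientGroup.mk_mul, QuotientGroup.mk_mul, QuotientGroup.mk_mul, QuotientGroup.mk_mul,
    QuotientGroup.mk_mul, QuotientGroup.mk_inv, c1, mul_inv_cancel_right, hE, QuotientGroup.mk_mul,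
    QuotientGroup.mk_mul, QuotientGroup.mk_mul, mul_assoc (((⁅s, ⁅t, w⁆⁆ : G)) : G ⧸ Z), c2,
    ← mul_assoc] at e'
  exact QuotientGroup.eq.1 (mul_right_cancel (mul_right_cancel (mul_right_cancel e')))

/-- No element of the Sylow subgroup outside the core is quadratic on the block. -/
theorem not_quad {t₀ : G} (htL : t₀ ∈ pResidual p G) (htV : SV.ρ t₀ = negSB F)
    (htM : SM.ρ t₀ = negSB F) {b : G} (hb : b ∈ (S : Subgroup G)) (hbQ : b ∉ pCore p G)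
    (hquad : ∀ a ∈ ⁅pCore p G, pResidual p G⁆, ⁅⁅a, b⁆, b⁆ ∈ Z) : False := by
  haveI := SV.normal'
  obtain ⟨w, hw, s, hs, hne⟩ := h.val
  obtain ⟨σ, hσ⟩ := h.mid.upper s hs
  obtain ⟨τ, hτ⟩ := h.mid.upper b hb
  have hτ0 : τ ≠ 0 := fun e => hbQ ((h.mid.kerρ b).1 (by
    rw [hτ, e]; exact Matrix.SpecialLinearGroup.transvection_coeff_zero _))
  obtain ⟨φ, hφ⟩ := h.exists_phi htL htV htM hw hs
  obtain ⟨φ', hφ'⟩ := h.exists_phi htL htV htM hw hb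
  have hq : ⁅b, ⁅b, w⁆⁆ ∈ Z := by
    obtain ⟨a, ha, f, hf, hfg, rfl⟩ := h.decomp htL htV htM hw
    have e1 : ⁅b, a * f⁆ = ⁅b, a⁆ * ⁅b, f⁆ := by
      rw [comm_mul_right, h.mid.cen_comm (hfg b) a, mul_inv_cancel_right]
    rw [e1, comm_mul_right, sub_iff.2 (h.mid.cen_comm (hfg b) b), mul_one, mul_inv_cancel, mul_one,
      ← commutatorElement_inv a b]
    have e2 : ⁅b, ⁅a, b⁆⁻¹⁆ = ⁅a, b⁆⁻¹ * ⁅⁅a, b⁆, b⁆ * ⁅a, b⁆⁻¹⁻¹ := by
      simp [commutatorElement_def, mul_assoc]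
    rw [e2]
    exact SV.normal'.conj_mem _ (hquad a ha) _
  obtain ⟨hx1, e1⟩ := hφ' b hb τ hτ
  have hφ0 : φ' = 0 := by
    have := congrFun ((e1.symm).trans ((SV.ker ⟨_, hx1⟩).2 hq)) 0
    simpa [hτ0] using this
  obtain ⟨hx2, e2⟩ := hφ' s hs σ hσ
  obtain ⟨hx3, e3⟩ := hφ b hb τ hτ
  obtain ⟨hx4, e4⟩ := hφ s hs σ hσ
  refine hne ((SV.ker ⟨_, hx4⟩).1 ?_)
  have e5 : SV.ψ ⟨_, hx2⟩ = SV.ψ ⟨_, hx3⟩ := by
    have h0 := (SV.ker ((⟨_, hx2⟩ : ↥V)⁻¹ * ⟨_, hx3⟩)).2 (h.symm_mod hw hs hb)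
    rw [SV.map_mul, SV.map_inv] at h0
    exact neg_add_eq_zero.1 h0
  rw [e2, e3, hφ0, mul_zero] at e5
  have hφ1 : φ = 0 := by
    have := congrFun e5.symm 0
    simpa [hτ0] using this
  rw [e4, hφ1, mul_zero]
  funext i; fin_cases i <;> rfl

/-- The block in the case `b = 2`. -/
theorem blockData_two : BlockData p n (S : Subgroup G) (pCore p G) (pResidual p G) F := by
  haveI hLn : (pResidual p G).Normal := normal_pResidual'
  haveI := SV.normal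
  haveI := SM.normal
  obtain ⟨t, htL, htV, htM⟩ := h.exists_inv
  set L := pResidual p G with hL
  set A := ⁅pCore p G, L⁆ with hA
  have hAW : A ≤ W := h.A_le_W
  have hcore : pCoreOf p L = A := h.mid.core.trans h.inter
  have hΩ := h.omega_eq htL htV htM
  have hA' : ⁅A, A⁆ = A ⊓ V ⊓ Subgroup.centralizer (L : Set G) := by
    refine le_antisymm (fun x hx => ⟨⟨Subgroup.commutator_le_left A A hx, SV.le (h.derived_le hx)⟩,
      (h.mid.inf_centralizer (SV.le (h.derived_le hx))).2 (h.derived_le hx)⟩) fun x hx => ?_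
    exact h.cent_le htL htV htM hx.1.1 fun l hl => hx.2 l hl
  have hZL : L ⊓ Subgroup.centralizer (L : Set G) = A ⊓ V ⊓ Subgroup.centralizer (L : Set G) := by
    refine le_antisymm (fun z hz => ?_) (inf_le_inf (inf_le_left.trans (Subgroup.commutator_le_right _ _)) le_rfl)
    have hzQ : z ∈ pCore p G := (h.mid.kerρ z).1 ((SV.rho_eq_one_iff z).2 fun v hv => by
      haveI := SV.normal'
      obtain ⟨y, hy, a, ha, rfl⟩ := Subgroup.mem_sup_of_normal_left.1 (h.mid.cover_V hv)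
      rw [comm_mul_right, sub_iff.2 (h.mid.cen_comm hy z),
        sub_iff.2 (hz.2 a (Subgroup.commutator_le_right _ _ ha.1)).symm]
      simp)
    have hzA : z ∈ A := h.inter.le ⟨hz.1, hzQ⟩
    rw [← hA']
    exact h.cent_le htL htV htM hzA fun l hl => hz.2 l hl
  have hAp : IsPGroup p A := h.mid.pgroup_Q.to_le (Subgroup.commutator_le_left _ _)
  refine ⟨h.mid.res, h.mid.comm, h.mid.core, ?_, h.mid.quot, ?_,
    Or.inr ⟨h.three, ?_, ?_, ?_, ?_, ?_, fun b hb hbW hle => ?_⟩⟩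
  · rw [hcore]; exact commutator_residual_idem h.mid.pgroup_Q
  · rw [hcore, hΩ]
    exact SV.actsAs h.mid.image inf_le_right h.mid.cover_V inf_le_left fun a ha =>
      ⟨fun hm => (h.mid.inf_centralizer ha.2).1 hm.2,
        fun hz => ⟨ha, (h.mid.inf_centralizer ha.2).2 hz⟩⟩
  · rw [hcore, hΩ]
    exact SM.actsAs h.imageM hAW h.cover_W inf_le_left fun a ha =>
      ⟨fun hm => (h.memY a (hAW ha)).2 fun g => SV.comm_mem g hm.2,
        fun hy => ⟨ha, h.inf_Y htL htV htM ha hy⟩⟩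
  · rw [hcore, hΩ]; exact hA'
  · rw [hcore, hΩ, ← hA']
    refine le_antisymm ?_ ?_
    · rw [Subgroup.map_le_iff_le_comap]
      refine CfsgLib.PGroups.frattini_le_of (p := p) ?_ fun x => ?_
      · rw [commutator_def, Subgroup.commutator_le]
        intro a _ c _
        show A.subtype ⁅a, c⁆ ∈ ⁅A, A⁆
        rw [map_commutatorElement]
        exact Subgroup.commutator_mem_commutator a.2 c.2
      · show A.subtype (x ^ p) ∈ ⁅A, A⁆
        rw [map_pow, Subgroup.coe_subtype, h.powW _ (hAW x.2)]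
        exact one_mem _
    · rw [Subgroup.commutator_le]
      intro a ha c hc
      exact ⟨⁅(⟨a, ha⟩ : A), ⟨c, hc⟩⁆, CfsgLib.PGroups.commutatorElement_mem_frattini hAp _ _,
        by simp [map_commutatorElement]⟩
  · rw [hcore, hΩ]; exact hZL
  · rw [hZL, ← hA', h.card_derived, h.three]
  · rw [hcore, hΩ] at hbW
    rw [hcore, hZL, ← hA'] at hle
    refine h.not_quad htL htV htM hb (fun hbQ => hbW fun v hv => (h.V_comm hv.2 hbQ).symm)
      fun a ha => h.derived_le (hle (Subgroup.commutator_mem_commutator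
        (Subgroup.commutator_mem_commutator ha (Subgroup.mem_zpowers b)) (Subgroup.mem_zpowers b)))

end MidTwo

end CfsgLib.PushUp.RankOne
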