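import Cfsg.Agent.Lib.PushUp.RankOne.Instance

/-!
Rank one pushing up: for `p ≥ 5` the group is planar (one natural module, trivial action elsewhere).
-/

set_option autoImplicit false
set_option linter.unusedSectionVars false
set_option linter.style.haveILetI false

namespace CfsgLib.PushUp.RankOne

open Cfsg
open scoped commutatorElement MatrixGroups
open CfsgLib.ClassicalLinear (upS upS_coe upS_add)

variable {G : Type*} [Group G] [Finite G] {p : ℕ} {F : Type} [Field F]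

/-- The outcome for `p ≥ 5`. -/
structure Planar (p : ℕ) (Q S V Z N : Subgroup G) (R : NatSection V Z F) : Prop where
  normQ : Q.Normal
  normN : N.Normal
  pgroup : IsPGroup p S
  kerρ : ∀ g, R.ρ g = 1 ↔ g ∈ Q
  upper : ∀ g, g ∈ S ↔ ∃ τ, R.ρ g = upS τ
  V_le : V ≤ Q
  comm : ∀ a ∈ Q, ∀ v ∈ V, a * v = v * a
  powS : ∀ z ∈ S, z ^ p = 1
  central : ∀ z ∈ Z, ∀ g : G, g * z = z * g
  sup : N ⊔ S = ⊤
  trivQ : ∀ n ∈ N, ∀ a ∈ Q, ⁅n, a⁆ ∈ V

theorem exists_planar [hp : Fact p.Prime] {n : ℕ} {S Q W M : Subgroup G}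
    (hB : Base G p (p ^ n) S Q W M) (hE₁ : Subgroup.centralizer (Q : Set G) ≤ Q) [Fintype F]
    (hF : Fintype.card F = p ^ n) (hp5 : 5 ≤ p) :
    ∃ (V Z N : Subgroup G) (R : NatSection V Z F), Planar p Q S V Z N R := by
  haveI := hB.normQ
  haveI : CharP F p := by
    obtain ⟨c, hc⟩ := CharP.exists F
    haveI := hc
    obtain ⟨m, hcp, hm⟩ := FiniteField.card F c
    have h1 : c ∣ p := hcp.dvd_of_dvd_pow (hF ▸ hm ▸ dvd_pow_self c m.pos.ne')
    rwa [(Nat.prime_dvd_prime_iff_eq hcp hp.out).1 h1] at hc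
  set D := sys hB
  have htrans : ∀ x y : Vertex G, ∃ g : Equiv.Perm G, g • x = y := fun x y => sys_trans x y
  have hG : ∀ x, D.Good x := fun x => D.good_all F hF htrans x
  rcases (show D.b = 1 ∨ D.b = 2 by
    have h1 := D.one_le_b; have h2 := D.b_le_two hG; omega) with hb | hb
  swap
  · exfalso
    obtain ⟨v, Pc, hch⟩ := D.exists_chain hG hb.ge 5
    have h : D.Two 5 v Pc := ⟨hG, hb, hch, by norm_num⟩
    obtain ⟨RV, RM, hC⟩ := h.exists_coords (F := F) hF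
    have := hC.p_eq_three le_rfl
    omega
  set P := S.map (regRep G)
  set x := D.base
  have hI₀ : D.I x P := ⟨1, rfl, (cj_one _).symm⟩
  have hr : (regRep G).range = D.Gv x := stabilizer_base.symm
  let e : G ≃* ↥(D.Gv x) :=
    (MonoidHom.ofInjective regRep_injective).trans (MulEquiv.subgroupCongr hr)
  have hmap : ∀ (H : Subgroup G) (g : G), g ∈ H ↔ (e g : Equiv.Perm G) ∈ H.map (regRep G) := fun H g =>
    ⟨fun h => ⟨g, h, rfl⟩, fun ⟨a, ha, ea⟩ => regRep_injective (ea.trans rfl) ▸ ha⟩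
  have hQb : D.Q x = Q.map (regRep G) := (cj_out hB.normQ 1).trans (cj_one _)
  have hE : D.Env x P e Q S :=
    ⟨hI₀, fun g => by rw [hQb]; exact hmap Q g, fun g => hmap S g, hE₁, hB.pgroup, hB.normQ⟩
  obtain ⟨y, Py, hC⟩ := D.exists_caseOne hG hb
  obtain ⟨g, hgx, hgP⟩ := D.exists_move htrans hC.edge hI₀
  have h := hC.smul D g
  rw [hgx, hgP] at h
  obtain ⟨R₀⟩ := D.exists_repV F hF hG htrans x
  obtain ⟨m, hm, hmM⟩ := D.exists_not_mem hI₀
  obtain ⟨RV, hRV⟩ := R₀.exists_normal hF hI₀ (D.I_conj hm hI₀) (D.sup_cj_eq hI₀ hm hmM)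
  obtain ⟨u, huP, huQ, hua⟩ := h.triv
  let N : Subgroup (Equiv.Perm G) :=
    { carrier := {g | g ∈ D.Gv x ∧ ∀ d ∈ D.Q x, ⁅g, d⁆ ∈ D.V x}
      one_mem' := ⟨one_mem _, fun d _ => by simp⟩
      mul_mem' := fun {a b} ha hb => ⟨(D.Gv _).mul_mem ha.1 hb.1, fun d hd => by
        rw [comm_mul_left]
        exact (D.V _).mul_mem (D.normV a ha.1 _ (hb.2 d hd)) (ha.2 d hd)⟩
      inv_mem' := fun {a} ha => ⟨(D.Gv _).inv_mem ha.1, fun d hd => by
        have e : ⁅a⁻¹, d⁆ = a⁻¹ * ⁅a, d⁆⁻¹ * a⁻¹⁻¹ := by simp [commutatorElement_def, mul_assoc]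
        rw [e]
        exact D.normV _ ((D.Gv _).inv_mem ha.1) _ ((D.V _).inv_mem (ha.2 d hd))⟩ }
  have hnorm : ∀ g ∈ D.Gv x, ∀ n ∈ N, g * n * g⁻¹ ∈ N := fun g hg n hn =>
    ⟨(D.Gv _).mul_mem ((D.Gv _).mul_mem hg hn.1) ((D.Gv _).inv_mem hg), fun d hd => by
      have h1 := D.normV g hg _ (hn.2 _ (D.normQ g⁻¹ ((D.Gv _).inv_mem hg) d hd))
      simpa [commutatorElement_def, mul_assoc] using h1⟩
  have hsup : N ⊔ P = D.Gv x := D.sup_eq_of_normal hI₀ (fun g hg => hg.1) hnorm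
    (show u ∈ N from ⟨D.le_G hI₀ huP, hua⟩) huP huQ
  have hker := D.kerV_eq hI₀ hE.cent' RV (D.V x) (D.V_le x) N hnorm hsup (fun n hn => hn.2)
    (fun g hg a ha => by
      have := Subgroup.mem_bot.1 ((RV.kerρ g).1 hg a ha)
      rw [this]; exact one_mem _)
  set R := RV.natSection e D.normV (D.V_le_G x) with hR
  have hSc : S = P.comap (Sys.incl e) := by ext g; exact hE.memS g
  refine ⟨_, _, N.comap (Sys.incl e), R, hB.normQ, Sys.normal_comap e hnorm, hB.pgroup,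
    fun g => (hker (e g)).trans (hE.memQ g).symm, fun g => ⟨fun hg => hRV.upper (e g) ((hE.memS g).1 hg),
      fun ⟨τ, hτ⟩ => ?_⟩, fun a ha => (hE.memQ a).2 (D.V_le x ha), fun a ha v hv => ?_,
    fun z hz => ?_, fun z hz a => ?_, ?_, fun n hn a ha => ?_⟩
  · obtain ⟨s, hs, hsτ⟩ := hRV.exists_upper τ
    have h1 : RV.ρ (s⁻¹ * e g) = 1 := by
      rw [map_mul, map_inv, hsτ, show RV.ρ (e g) = upS τ from hτ, inv_mul_cancel]
    have h2 : ((s⁻¹ * e g : ↥(D.Gv x)) : Equiv.Perm G) ∈ P := D.Q_le hI₀ ((hker _).1 h1)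
    refine (hE.memS g).2 ?_
    simpa using P.mul_mem hs h2
  · refine Sys.incl_injective e ?_
    rw [map_mul, map_mul]
    exact D.comm _ ((hE.memQ a).1 ha) _ hv
  · refine Sys.incl_injective e ?_
    rw [map_pow, map_one]
    exact (h.exponent _ ((hE.memS z).1 hz)).2 (by omega)
  · refine Sys.incl_injective e ?_
    rw [map_mul, map_mul]
    exact ((sub_iff.1 (Subgroup.mem_bot.1 (RV.kerSub_comm hz (Sys.incl_mem e a))))).symm
  · rw [hSc]; exact Sys.sup_comap e (fun g hg => hg.1) (D.le_G hI₀) hsup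
  · show Sys.incl e ⁅n, a⁆ ∈ D.V x
    rw [map_commutatorElement]
    exact hn.2 _ ((hE.memQ a).1 ha)

end CfsgLib.PushUp.RankOne
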